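import Mathlib
import Cfsg.Agent.CTL.Lower

/-! S4881: linear groups of order prime to the characteristic with exactly two orbits on the
non-zero vectors.  Definitions. -/

set_option autoImplicit false
set_option linter.unusedSectionVars false

namespace Cfsg.Agent.R3C

open Module Subgroup Cfsg Cfsg.Agent.Char Cfsg.Agent.Perm.SemiLin

section lin
variable {p : ℕ} [hp : Fact p.Prime] {V : Type*} [AddCommGroup V] [Module (ZMod p) V]
  {G : Type*} [Group G]

/-- The orbit of a vector. -/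
def orb (ρ : G →* End (ZMod p) V) (v : V) : Set V := {u | ∃ g, ρ g v = u}

/-- The stabilizer of a vector. -/
def stab (ρ : G →* End (ZMod p) V) (v : V) : Subgroup G where
  carrier := {g | ρ g v = v}
  one_mem' := by simp
  mul_mem' := fun {a b} (ha : ρ a v = v) (hb : ρ b v = v) => by
    change ρ (a * b) v = v
    rw [map_mul, End.mul_apply, hb, ha]
  inv_mem' := fun {a} (ha : ρ a v = v) => by
    change ρ a⁻¹ v = v
    conv_lhs => rw [← ha, ← End.mul_apply, ← map_mul, inv_mul_cancel, map_one, End.one_apply]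

theorem mem_stab {ρ : G →* End (ZMod p) V} {v : V} {g : G} : g ∈ stab ρ v ↔ ρ g v = v := Iff.rfl

theorem mem_orb {ρ : G →* End (ZMod p) V} {v u : V} : u ∈ orb ρ v ↔ ∃ g, ρ g v = u := Iff.rfl

/-- A faithful representation of a `p'`-group with exactly two orbits on the non-zero vectors,
those of `v` and `w`. -/
structure Two (ρ : G →* End (ZMod p) V) (v w : V) : Prop where
  inj : Function.Injective ρ
  cop : ¬ p ∣ Nat.card G
  hv : v ≠ 0
  hw : w ≠ 0
  ne : w ∉ orb ρ v
  all : ∀ u, u ≠ 0 → u ∈ orb ρ v ∨ u ∈ orb ρ w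

/-- Irreducibility. -/
def Irr (ρ : G →* End (ZMod p) V) : Prop :=
  ∀ W : Submodule (ZMod p) V, (∀ g, ∀ u ∈ W, ρ g u ∈ W) → W = ⊥ ∨ W = ⊤

/-- `W` is a minimal non-zero `A`-invariant subspace. -/
structure MinInv (ρ : G →* End (ZMod p) V) (A : Subgroup G) (W : Submodule (ZMod p) V) : Prop where
  inv : ∀ a ∈ A, ∀ u ∈ W, ρ a u ∈ W
  ne : W ≠ ⊥
  min : ∀ U ≤ W, (∀ a ∈ A, ∀ u ∈ U, ρ a u ∈ U) → U = ⊥ ∨ U = W

/-- The contragredient representation. -/
noncomputable def dual (ρ : G →* End (ZMod p) V) : G →* End (ZMod p) (Dual (ZMod p) V) :=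
  Representation.dual ρ

theorem dual_apply (ρ : G →* End (ZMod p) V) (g : G) (φ : Dual (ZMod p) V) (u : V) :
    dual ρ g φ u = φ (ρ g⁻¹ u) := rfl

instance finite_dual [Finite V] : Finite (Dual (ZMod p) V) := DFunLike.finite _

/-- The (integral) Fourier coefficient of a set closed under non-zero scalars. -/
noncomputable def th (O : Set V) (φ : Dual (ZMod p) V) : ℤ :=
  ((O ∩ {u | φ u = 0}).ncard : ℤ) - ((O ∩ {u | φ u = 1}).ncard : ℤ)

end lin

/-- `G` has a faithful complex character of degree `n`. -/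
def FC (G : Type*) [Group G] (n : ℕ) : Prop :=
  ∃ χ : G → ℂ, IsCharacter G χ ∧ χ 1 = n ∧ ∀ g, χ g = χ 1 → g = 1

/-- `G` has an abelian subgroup of index at most `i`. -/
def Ab (G : Type*) [Group G] (i : ℕ) : Prop :=
  ∃ A : Subgroup G, (∀ a ∈ A, ∀ b ∈ A, a * b = b * a) ∧ A.index ≤ i

/-- The number of classes of `G` that meet the cyclic group generated by `x`. -/
noncomputable def cl {G : Type*} [Group G] (x : G) : ℕ :=
  (ConjClasses.mk '' (zpowers x : Set G)).ncard

/-- Exactly two classes of non-identity `p`-elements. -/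
def Three (p : ℕ) (G : Type*) [Group G] : Prop :=
  ∃ x y : G, x ≠ 1 ∧ y ≠ 1 ∧ (∃ k, orderOf x = p ^ k) ∧ (∃ k, orderOf y = p ^ k) ∧ ¬ IsConj x y ∧
    ∀ z : G, z ≠ 1 → (∃ k, orderOf z = p ^ k) → IsConj x z ∨ IsConj y z

end Cfsg.Agent.R3C
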