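import Mathlib
import Cfsg.Agent.R3C.Defs
import Cfsg.Agent.S4878
import Cfsg.Agent.Char.SchurBound

/-! S4881: the subgroup of index two of the affine group; three classes. -/

set_option autoImplicit false
set_option linter.unusedSectionVars false

namespace Cfsg.Agent.R3C

open Module Subgroup Cfsg Cfsg.Agent.Char Cfsg.Agent.Perm.SemiLin Cfsg.Agent.CTL Misc.Zsig

variable {p : ℕ} [hp : Fact p.Prime] {V : Type*} [AddCommGroup V] [Module (ZMod p) V] [Finite V]
  {G : Type*} [Group G] [Finite G] {ρ : G →* End (ZMod p) V} {v w : V}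

/-- `π g = a` for `f g = (x ↦ a x + b)` is a homomorphism `G →* (ZMod p)ˣ` whose kernel embeds in
the translations.  `p ∣ |G|`, `p ∤ |range π|`, so the kernel has order `p` (all translations occur)
and `2 |range π| = p - 1`.  Two `p`-regular elements with the same `a` are conjugate: for `a = 1`
both are trivial (a non-trivial translation has order `p`), for `a ≠ 1` conjugate by a suitable
translation.  So the `p`-regular classes inject into `range π`. -/
theorem aff_le (hp2 : p ≠ 2) (hc : 2 * Nat.card G = p * (p - 1))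
    (f : G →* affineGroup (ZMod p)) (hf : Function.Injective f) :
    2 * Nat.card (S4878.RC p G) ≤ p - 1 := by
  choose a b hab using fun g => (f g).2
  have hb : ∀ g h, b (g * h) = a g * b h + b g := fun g h => by
    have := hab (g * h) 0
    rw [map_mul, Subgroup.coe_mul, Equiv.Perm.mul_apply, hab, hab] at this
    simpa using this.symm
  have ha : ∀ g h, a (g * h) = a g * a h := fun g h => Units.ext (by
    have := hab (g * h) 1
    rw [map_mul, Subgroup.coe_mul, Equiv.Perm.mul_apply, hab, hab, hb] at this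
    rw [Units.val_mul]
    linear_combination -this)
  have ext : ∀ g h, a g = a h → b g = b h → g = h := fun g h e1 e2 =>
    hf (Subtype.ext (Equiv.ext fun x => by rw [hab, hab, e1, e2]))
  let π : G →* (ZMod p)ˣ := MonoidHom.mk' a ha
  have h1 : Nat.card π.ker * Nat.card π.range = Nat.card G := by
    rw [← index_ker, card_mul_index]
  have h2 : Nat.card π.range ∣ p - 1 := by
    have := card_subgroup_dvd_card π.range
    rwa [Nat.card_eq_fintype_card (α := (ZMod p)ˣ), ZMod.card_units] at this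
  have p2 := hp.out.two_le
  have h3 : p ∣ Nat.card π.ker := by
    have h4 : p ∣ Nat.card π.ker * Nat.card π.range := h1 ▸ ((hp.out.dvd_mul.1 ⟨_, hc⟩).resolve_left
      fun e => hp2 ((Nat.prime_dvd_prime_iff_eq hp.out Nat.prime_two).1 e))
    refine (hp.out.dvd_mul.1 h4).resolve_right fun e => ?_
    have := Nat.le_of_dvd (by omega) (e.trans h2)
    omega
  have bi : Function.Injective fun g : π.ker => b g := fun g h e =>
    Subtype.ext (ext _ _ ((MonoidHom.mem_ker.1 g.2).trans (MonoidHom.mem_ker.1 h.2).symm) e)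
  have h4 : Nat.card π.ker = p := le_antisymm
    ((Nat.card_le_card_of_injective _ bi).trans (Nat.card_zmod p).le) (Nat.le_of_dvd Nat.card_pos h3)
  have bs := ((Nat.bijective_iff_injective_and_card _).2 ⟨bi, h4.trans (Nat.card_zmod p).symm⟩).2
  have h5 : 2 * Nat.card π.range = p - 1 := by
    rw [← h1, h4, mul_left_comm] at hc
    exact Nat.eq_of_mul_eq_mul_left hp.out.pos hc
  have one : ∀ g, ¬ p ∣ orderOf g → a g = 1 → g = 1 := fun g hg e => orderOf_eq_one_iff.1
    (((Nat.dvd_prime hp.out).1 (h4 ▸ π.ker.orderOf_dvd_natCard e)).resolve_right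
      fun e => hg e.symm.dvd)
  have key : ∀ g h, ¬ p ∣ orderOf g → ¬ p ∣ orderOf h → a g = a h → IsConj g h := fun g h hg hh e => by
    by_cases e1 : a g = 1
    · rw [one g hg e1, one h hh (e ▸ e1)]
    obtain ⟨t, ht⟩ := bs ((b h - b g) / (1 - a g))
    have t1 : a t = 1 := t.2
    have n : (1 - a g : ZMod p) ≠ 0 := fun k => e1 (Units.ext (sub_eq_zero.1 k).symm)
    refine isConj_iff.2 ⟨t, mul_inv_eq_iff_eq_mul.2 (ext _ _ (by rw [ha, ha, t1, e, mul_comm]) ?_)⟩
    beta_reduce at ht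
    rw [hb, hb, t1, ← e, Units.val_one]
    linear_combination (eq_div_iff n).1 ht
  choose r hr using fun c : S4878.RC p G => c.2
  rw [← h5]
  refine Nat.mul_le_mul_left 2 (Nat.card_le_card_of_injective
    (fun c => (⟨π (r c), r c, rfl⟩ : π.range)) fun c d e => Subtype.ext ?_)
  rw [← (hr c).1, ← (hr d).1]
  exact ConjClasses.mk_eq_mk_iff_isConj.2 (key _ _ (hr c).2 (hr d).2 (congrArg Subtype.val e))

/-- `Nat.card_eq_three_iff`-type argument (`Set.ncard_eq_three`, `Finset.card_eq_three`); one of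
the three classes is the class of `1`. -/
theorem three_of_card (h3 : Nat.card {c : ConjClasses G //
    ∃ g : G, ConjClasses.mk g = c ∧ ∃ k : ℕ, orderOf g = p ^ k} = 3) : Three p G := by
  obtain ⟨s, hs⟩ : ∃ s : Set (ConjClasses G), s = {c | ∃ g : G, ConjClasses.mk g = c ∧
    ∃ k : ℕ, orderOf g = p ^ k} := ⟨_, rfl⟩
  have h1 : s.ncard = 3 := by rw [hs, ← Nat.card_coe_set_eq]; exact h3
  have h2 : (s \ {ConjClasses.mk 1}).ncard = 2 := by
    rw [Set.ncard_sdiff_singleton_of_mem (hs ▸ ⟨1, rfl, 0, by simp⟩), h1]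
  obtain ⟨c, d, hcd, e⟩ := Set.ncard_eq_two.1 h2
  have hc : c ∈ s \ {ConjClasses.mk 1} := e ▸ Set.mem_insert _ _
  have hd : d ∈ s \ {ConjClasses.mk 1} := e ▸ Set.mem_insert_of_mem _ rfl
  subst hs
  obtain ⟨⟨x, rfl, hx⟩, x1⟩ := hc
  obtain ⟨⟨y, rfl, hy⟩, y1⟩ := hd
  refine ⟨x, y, fun k => x1 (congrArg ConjClasses.mk k), fun k => y1 (congrArg ConjClasses.mk k), hx, hy,
    fun k => hcd (ConjClasses.mk_eq_mk_iff_isConj.2 k), fun z z1 hz => ?_⟩
  have m : ConjClasses.mk z ∈ ({ConjClasses.mk x, ConjClasses.mk y} : Set (ConjClasses G)) :=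
    e ▸ ⟨⟨z, rfl, hz⟩, fun k => z1 (isConj_one_left.1 (ConjClasses.mk_eq_mk_iff_isConj.1 k))⟩
  exact m.imp (fun k => ConjClasses.mk_eq_mk_iff_isConj.1 k.symm)
    fun k => ConjClasses.mk_eq_mk_iff_isConj.1 (Eq.symm k)

/-- Images of `x, y`: non-trivial `p`-elements.  A `p`-element of `G ⧸ N` is the image of a
`p`-element (a suitable power of a preimage, e.g. `Block.pPart`), and conjugate images of
`p`-elements come from conjugate elements (`isConj_of_mk_eq_of_coprime` in Char/SchurBound). -/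
theorem Three.quot (h : Three p G) (N : Subgroup G) [N.Normal] (hN : ¬ p ∣ Nat.card N) :
    Three p (G ⧸ N) := by
  obtain ⟨x, y, x1, y1, hx, hy, hn, hz⟩ := h
  have co : ∀ u : G, (∃ k, orderOf u = p ^ k) → (orderOf u).Coprime (Nat.card N) := fun u ⟨k, e⟩ =>
    e ▸ Nat.Coprime.pow_left k (hp.out.coprime_iff_not_dvd.2 hN)
  have ne : ∀ u : G, u ≠ 1 → (∃ k, orderOf u = p ^ k) → (u : G ⧸ N) ≠ 1 := fun u u1 hu e =>
    u1 (orderOf_eq_one_iff.1 ((co u hu).eq_one_of_dvd
      (N.orderOf_dvd_natCard ((QuotientGroup.eq_one_iff u).1 e))))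
  have pw : ∀ u : G, (∃ k, orderOf u = p ^ k) → ∃ k, orderOf (u : G ⧸ N) = p ^ k := fun u ⟨k, e⟩ => by
    obtain ⟨i, -, hi⟩ := (Nat.dvd_prime_pow hp.out).1 (e ▸ orderOf_map_dvd (QuotientGroup.mk' N) u)
    exact ⟨i, hi⟩
  refine ⟨x, y, ne x x1 hx, ne y y1 hy, pw x hx, pw y hy, fun k => hn ?_, fun z z1 k => ?_⟩
  · obtain ⟨c, e⟩ := isConj_iff.1 k
    obtain ⟨c, rfl⟩ := QuotientGroup.mk_surjective c
    refine (isConj_iff.2 ⟨c, rfl⟩).trans (isConj_of_mk_eq_of_coprime N ?_ (co y hy) e)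
    rw [← MulAut.conj_apply, MulEquiv.orderOf_eq]
    exact co x hx
  · obtain ⟨g, rfl⟩ := QuotientGroup.mk'_surjective N z
    have e : QuotientGroup.mk' N (Block.pPart p g) = QuotientGroup.mk' N g := by
      rw [← Block.pPart_map, Block.pPart_eq_self_iff.2 k]
    rw [← e] at z1 ⊢
    exact (hz _ (fun i => z1 (by rw [i, map_one])) (Block.orderOf_pPart p g)).imp
      (QuotientGroup.mk' N).map_isConj (QuotientGroup.mk' N).map_isConj

end Cfsg.Agent.R3C
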