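import Mathlib
import Cfsg.Agent.R3C.Defs

/-! S4881: basic facts on orbits. -/

set_option autoImplicit false
set_option linter.unusedSectionVars false

namespace Cfsg.Agent.R3C

open Module Subgroup Cfsg Cfsg.Agent.Char Cfsg.Agent.Perm.SemiLin Cfsg.Agent.CTL Misc.Zsig

variable {p : ℕ} [hp : Fact p.Prime] {V : Type*} [AddCommGroup V] [Module (ZMod p) V] [Finite V]
  {G : Type*} [Group G] [Finite G] {ρ : G →* End (ZMod p) V} {v w : V}

theorem Bas.three {X : Type*} [Finite X] {o : X} {A B : Set X} (hA : o ∉ A) (hB : o ∉ B) (hd : Disjoint A B)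
    (h : ∀ u, u ≠ o → u ∈ A ∨ u ∈ B) : A.ncard + B.ncard + 1 = Nat.card X := by
  rw [← Set.ncard_union_eq hd, ← Set.ncard_insert_of_notMem (a := o) (by simp [hA, hB]), ← Set.ncard_univ]
  exact congrArg _ (Set.eq_univ_of_forall fun u => (eq_or_ne u o).imp id (h u))

theorem Bas.num {a b n : ℕ} (e : a + b + 1 = n) (ha : a ∣ n) (hb : b ∣ n) : n ≤ 6 := by
  wlog h : b ≤ a generalizing a b
  · exact this (by omega) hb ha (by omega)
  have h1 := Nat.le_of_dvd b.succ_pos ((Nat.dvd_add_right dvd_rfl).1 (add_assoc a b 1 ▸ e ▸ ha))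
  obtain rfl | rfl : a = b ∨ a = b + 1 := by omega
  · have := Nat.le_of_dvd one_pos ((Nat.dvd_add_right (dvd_add dvd_rfl dvd_rfl)).1 (e ▸ ha))
    omega
  · have := Nat.le_of_dvd two_pos ((Nat.dvd_add_right (dvd_add dvd_rfl dvd_rfl)).1
      ((by omega : n = b + b + 2) ▸ hb))
    omega

/-- Orbit-stabilizer (`MulAction.compHom V ρ`, `MulAction.index_stabilizer`). -/
theorem ncard_orb (ρ : G →* End (ZMod p) V) (u : V) : (orb ρ u).ncard = (stab ρ u).index := by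
  let _ := MulAction.compHom V ρ
  exact (MulAction.index_stabilizer G u).symm

theorem self_mem_orb (ρ : G →* End (ZMod p) V) (u : V) : u ∈ orb ρ u := by
  exact ⟨1, by simp⟩

theorem orb_eq {u x : V} (h : u ∈ orb ρ x) : orb ρ u = orb ρ x := by
  obtain ⟨g, rfl⟩ := h
  ext y
  exact ⟨fun ⟨k, e⟩ => ⟨k * g, by rw [map_mul, End.mul_apply, e]⟩,
    fun ⟨k, e⟩ => ⟨k * g⁻¹, by rw [← End.mul_apply, ← map_mul, inv_mul_cancel_right, e]⟩⟩

theorem apply_mem_orb {u x : V} (g : G) : ρ g u ∈ orb ρ x ↔ u ∈ orb ρ x := by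
  have e : orb ρ (ρ g u) = orb ρ u := orb_eq ⟨g, rfl⟩
  exact ⟨fun h => orb_eq h ▸ e ▸ self_mem_orb ρ u, fun h => orb_eq h ▸ ⟨g, rfl⟩⟩

theorem zero_notMem_orb {x : V} (hx : x ≠ 0) : (0 : V) ∉ orb ρ x := by
  intro h
  obtain ⟨g, e⟩ := orb_eq h ▸ self_mem_orb ρ x
  exact hx (e.symm.trans (map_zero _))

theorem ncard_orb_dvd (ρ : G →* End (ZMod p) V) (u : V) : (orb ρ u).ncard ∣ Nat.card G := by
  rw [ncard_orb]
  exact index_dvd_card _

theorem ncard_orb_pos (ρ : G →* End (ZMod p) V) (u : V) : 0 < (orb ρ u).ncard := by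
  exact (Set.ncard_pos).2 ⟨u, self_mem_orb ρ u⟩

theorem Two.symm (h : Two ρ v w) : Two ρ w v := by
  exact ⟨h.inj, h.cop, h.hw, h.hv, fun k => h.ne (orb_eq k ▸ self_mem_orb ρ w), fun u hu => (h.all u hu).symm⟩

theorem Two.disj (h : Two ρ v w) : Disjoint (orb ρ v) (orb ρ w) := by
  exact Set.disjoint_left.2 fun u a b => h.ne (orb_eq a ▸ orb_eq b ▸ self_mem_orb ρ w)

/-- `V` is the disjoint union of `{0}` and the two orbits. -/
theorem Two.sum (h : Two ρ v w) : (orb ρ v).ncard + (orb ρ w).ncard + 1 = Nat.card V := by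
  exact Bas.three (zero_notMem_orb h.hv) (zero_notMem_orb h.hw) h.disj h.all

theorem Two.card_le (h : Two ρ v w) : Nat.card V ≤ 2 * Nat.card G + 1 := by
  have := Nat.le_of_dvd Nat.card_pos (ncard_orb_dvd ρ v)
  have := Nat.le_of_dvd Nat.card_pos (ncard_orb_dvd ρ w)
  have := h.sum
  omega

theorem Two.orbs (h : Two ρ v w) {x y : V} (hx : x ≠ 0) (hy : y ≠ 0) (n : y ∉ orb ρ x) :
    (orb ρ x = orb ρ v ∧ orb ρ y = orb ρ w) ∨ (orb ρ x = orb ρ w ∧ orb ρ y = orb ρ v) := by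
  rcases h.all x hx with a | a <;> rcases h.all y hy with b | b
  · exact absurd (orb_eq a ▸ b) n
  · exact .inl ⟨orb_eq a, orb_eq b⟩
  · exact .inr ⟨orb_eq a, orb_eq b⟩
  · exact absurd (orb_eq a ▸ b) n

/-- If `⊥ ≠ W ≠ ⊤` is invariant, then `W \ {0}` and `V \ W` are non-empty invariant sets, so
`V \ W` is one of the two orbits; its size `p ^ n - p ^ d` (`0 < d < n`, `card_submodule`) is
divisible by `p` and divides `|G|`. -/
theorem Two.irr (h : Two ρ v w) : Irr ρ := by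
  intro W hW
  by_contra! k
  obtain ⟨x, hx, x0⟩ := Submodule.exists_mem_ne_zero_of_ne_bot k.1
  obtain ⟨y, hy⟩ : ∃ y, y ∉ W := by
    by_contra! c
    exact k.2 (Submodule.eq_top_iff'.2 c)
  have s : ∀ u ∈ W, ∀ t ∈ orb ρ u, t ∈ W := fun u hu t ⟨g, e⟩ => e ▸ hW g u hu
  have e : (W : Set V)ᶜ = orb ρ y := by
    ext u
    refine ⟨fun hu => ?_, fun hu c => hy (s u c y (orb_eq hu ▸ self_mem_orb ρ y))⟩
    have a := h.all u fun c => hu (c ▸ W.zero_mem)
    rcases h.orbs (y := y) x0 (fun c => hy (c ▸ W.zero_mem)) fun c => hy (s x hx y c) with ⟨e, e'⟩ | ⟨e, e'⟩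
    · exact e' ▸ a.resolve_left fun c => hu (s x hx u (e ▸ c))
    · exact e' ▸ a.resolve_right fun c => hu (s x hx u (e ▸ c))
  have d : p ∣ Nat.card W := card_submodule W ▸ dvd_pow_self p fun c => k.1 (Submodule.finrank_eq_zero.1 c)
  have d' := d.trans (AddSubgroup.card_addSubgroup_dvd_card W.toAddSubgroup)
  rw [← Set.ncard_add_ncard_compl (W : Set V), e] at d'
  exact h.cop (((Nat.dvd_add_right d).1 d').trans (ncard_orb_dvd ρ y))

/-- `x ↦ c • x` maps `orb ρ u` bijectively onto `orb ρ (c • u)`.  If `c • u ∉ orb ρ u` (so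
`u ≠ 0`), then these are the two orbits and they have the same size. -/
theorem Two.smul_mem (h : Two ρ v w) (hne : (orb ρ v).ncard ≠ (orb ρ w).ncard) {c : ZMod p}
    (hc : c ≠ 0) (u : V) : c • u ∈ orb ρ u := by
  by_contra k
  have u0 : u ≠ 0 := fun e => k (by rw [e, smul_zero]; exact self_mem_orb ρ 0)
  have e : (orb ρ (c • u)).ncard = (orb ρ u).ncard := by
    rw [← Set.ncard_image_of_injective (orb ρ u) (smul_right_injective V hc)]
    congr 1
    ext y
    exact ⟨fun ⟨g, e⟩ => ⟨_, ⟨g, rfl⟩, (map_smul _ _ _).symm.trans e⟩,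
      fun ⟨_, ⟨g, rfl⟩, e⟩ => ⟨g, (map_smul _ _ _).trans e⟩⟩
  rcases h.orbs u0 (smul_ne_zero hc u0) k with ⟨a, b⟩ | ⟨a, b⟩
  · exact hne (a ▸ b ▸ e.symm)
  · exact hne (a ▸ b ▸ e)

/-- `exists_char`, `finrank_eq_of_card`. -/
theorem fc_of_inj (hρ : Function.Injective ρ) (hG : ¬ p ∣ Nat.card G) {n : ℕ}
    (hn : Nat.card V = p ^ n) : FC G n := by
  exact finrank_eq_of_card hn ▸ exists_char ρ hρ hG

/-- Add trivial characters. -/
theorem FC.mono {e n : ℕ} (h : FC G e) (he : e ≤ n) : FC G n := by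
  obtain ⟨χ, h1, h2, h3⟩ := h
  refine ⟨_, h1.add (isCharacter_one.nsmul (n - e)), ?_, fun g k => h3 g (add_right_cancel k)⟩
  simp [h2, he]

theorem FC.sub {e : ℕ} (h : FC G e) (H : Subgroup G) : FC H e := by
  obtain ⟨χ, h1, h2, h3⟩ := h
  exact ⟨_, h1.restrict H, h2, fun g k => Subtype.ext (h3 g k)⟩

theorem Ab.mono {i j : ℕ} (h : Ab G i) (hij : i ≤ j) : Ab G j := by
  obtain ⟨A, h1, h2⟩ := h
  exact ⟨A, h1, h2.trans hij⟩

/-- Map the abelian subgroup into `G`; the indices multiply. -/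
theorem Ab.of_sub {i j : ℕ} (H : Subgroup G) (h : Ab H i) (hj : H.index ≤ j) : Ab G (i * j) := by
  obtain ⟨A, h1, h2⟩ := h
  refine ⟨A.map H.subtype, ?_, index_map_subtype A ▸ Nat.mul_le_mul h2 hj⟩
  rintro _ ⟨a, ha, rfl⟩ _ ⟨b, hb, rfl⟩
  exact congrArg Subtype.val (h1 a ha b hb)

/-- `|A| ≤ k * A.index` (`lower_abelian`; for `A = ⊤` the group is abelian and `k = |G|`), so
`|V| - 1 ≤ 2 |G| ≤ 2 k i ^ 2`, which is at most `(p - 1) i ^ 2` if `2 k < p`. -/
theorem Two.of_ab (h : Two ρ v w) {i : ℕ} (hA : Ab G i) (hi : (p - 1) * i ^ 2 < Nat.card V - 1) :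
    p ≤ 2 * Nat.card (ConjClasses G) := by
  obtain ⟨A, h1, h2⟩ := hA
  have k : Nat.card A ≤ Nat.card (ConjClasses G) * A.index := by
    rcases eq_or_ne A ⊤ with rfl | n
    · rw [card_top, index_top, mul_one]
      refine Nat.card_le_card_of_injective ConjClasses.mk fun a b e => ?_
      obtain ⟨c, rfl⟩ := isConj_iff.1 (ConjClasses.mk_eq_mk_iff_isConj.1 e)
      rw [h1 c trivial a trivial, mul_inv_cancel_right]
    · exact (lower_abelian A h1 n).le
  by_contra! c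
  have k1 := Nat.mul_le_mul (k.trans (Nat.mul_le_mul_left _ h2)) h2
  have k2 := Nat.mul_le_mul_right (i ^ 2) (Nat.le_sub_one_of_lt c)
  have k3 := h.card_le
  rw [card_mul_index, mul_assoc, ← sq] at k1
  rw [mul_assoc] at k2
  omega

/-- Class equation with at most three classes: `N = 1 + a + b` with `b ≤ a`, `a ∣ N`, `a ≠ N`,
`b = 0` or `b ∣ N`.  Then `N = c * a ≤ 1 + 2 * a`; `c = 3` gives `N = 3`, `c = 2` gives `b = a - 1`
dividing `2 * a` (or `a = 1`), so `a ≤ 3`. -/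
theorem four_le_conj (h : 7 ≤ Nat.card G) : 4 ≤ Nat.card (ConjClasses G) := by
  have d : ∀ x : G, {y | IsConj y x}.ncard ∣ Nat.card G := fun x => by
    rw [show {y | IsConj y x} = MulAction.orbit (ConjAct G) x from
      Set.ext fun y => ConjAct.mem_orbit_conjAct.symm, ← MulAction.index_stabilizer]
    exact index_dvd_card _
  have n : ∀ x : G, x ≠ 1 → (1 : G) ∉ {y | IsConj y x} := fun x hx e => hx (isConj_one_right.1 e)
  have : Nontrivial G := Finite.one_lt_card_iff_nontrivial.1 (by omega)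
  obtain ⟨x, hx⟩ := exists_ne (1 : G)
  obtain ⟨y, hy, yx⟩ : ∃ y, y ≠ 1 ∧ ¬ IsConj y x := by
    by_contra! k
    have e := Bas.three (n x hx) (Set.notMem_empty _) (Set.disjoint_empty _) fun u hu => .inl (k u hu)
    rw [Set.ncard_empty, add_zero] at e
    have := Nat.le_of_dvd one_pos ((Nat.dvd_add_right dvd_rfl).1 (e ▸ d x))
    omega
  obtain ⟨z, hz, zx, zy⟩ : ∃ z, z ≠ 1 ∧ ¬ IsConj z x ∧ ¬ IsConj z y := by
    by_contra! k
    have := Bas.num (Bas.three (n x hx) (n y hy) (Set.disjoint_left.2 fun u a b => yx (IsConj.trans (IsConj.symm b) a))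
      fun u hu => or_iff_not_imp_left.2 (k u hu)) (d x) (d y)
    omega
  refine le_trans (le_of_eq ?_) (Set.ncard_le_card {ConjClasses.mk z, ConjClasses.mk y, ConjClasses.mk x, ConjClasses.mk 1})
  rw [Set.ncard_insert_of_notMem, Set.ncard_insert_of_notMem, Set.ncard_pair] <;>
    simp [ConjClasses.mk_eq_mk_iff_isConj, -isConj_iff, *]

end Cfsg.Agent.R3C
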