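import Mathlib
import Cfsg.Agent.R3C.Bas
import Cfsg.Agent.Block.Lattice
import Cfsg.Agent.S0899
import Cfsg.Agent.S4503

/-! S4881: Blichfeldt's lemma and large primes. -/

set_option autoImplicit false
set_option linter.unusedSectionVars false

namespace Cfsg.Agent.R3C

open Module Subgroup Cfsg Cfsg.Agent.Char Cfsg.Agent.Perm.SemiLin Cfsg.Agent.CTL Misc.Zsig

variable {p : ℕ} [hp : Fact p.Prime] {V : Type*} [AddCommGroup V] [Module (ZMod p) V] [Finite V]
  {G : Type*} [Group G] [Finite G] {ρ : G →* End (ZMod p) V} {v w : V}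

section Lat

open Cfsg.Agent.Block Polynomial

variable {m r : ℕ} {M : Ideal AlgInt} {τ : Representation ℂ G (Fin m → ℂ)}

/-- the endomorphisms preserving the lattice -/
def blO (M : Ideal AlgInt) (τ : Representation ℂ G (Fin m → ℂ)) : Subring (End ℂ (Fin m → ℂ)) where
  carrier := {S | ∀ u ∈ lat M τ, S u ∈ lat M τ}
  mul_mem' := fun ha hb u hu => ha _ (hb u hu)
  one_mem' := fun _ hu => hu
  add_mem' := fun ha hb u hu => add_mem (ha u hu) (hb u hu)
  zero_mem' := fun _ _ => zero_mem _
  neg_mem' := fun ha u hu => neg_mem (ha u hu)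

/-- the elements acting trivially on `lat / latRad` -/
def blK (M : Ideal AlgInt) (τ : Representation ℂ G (Fin m → ℂ)) : Subgroup G where
  carrier := {g | ∀ u ∈ lat M τ, τ g u - u ∈ latRad M τ}
  one_mem' := fun u _ => by simp
  mul_mem' := fun {a b} ha hb u hu => by
    have := add_mem (ha _ (apply_mem_lat hu b)) (hb u hu)
    rwa [sub_add_sub_cancel, ← End.mul_apply, ← map_mul] at this
  inv_mem' := fun {a} ha u hu => by
    have := neg_mem (ha _ (apply_mem_lat hu a⁻¹))
    rwa [neg_sub, ← End.mul_apply (τ a), ← map_mul, mul_inv_cancel, map_one, End.one_apply] at this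

instance : (blK M τ).Normal := ⟨fun a ha g u hu => by
  have := apply_mem_latRad (ha _ (apply_mem_lat hu g⁻¹)) g
  rwa [map_sub, ← End.mul_apply, ← End.mul_apply, ← End.mul_apply, ← map_mul, ← map_mul, ← map_mul,
    mul_inv_cancel, map_one, End.one_apply] at this⟩

theorem blK_eq_one (hM : IsPModular r M) (hf : ∀ g, τ g = 1 → g = 1) {g : G} (hg : g ∈ blK M τ)
    {l : ℕ} (hl : ¬ r ∣ l) (e : g ^ l = 1) : g = 1 := by
  refine hf g (LinearMap.ext fun y => ?_)
  by_contra c
  obtain ⟨d, -, h1, h2⟩ := exists_smul_mem_lat (M := M) (τ := τ) (sub_ne_zero.2 c)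
  have h3 := sum_mem (S := latRad M τ) (t := Finset.range l) fun i _ => pow_mem hg i _ h1
  have h4 : ∑ i ∈ Finset.range l, τ (g ^ i) (d • (τ g y - (1 : End ℂ _) y)) = 0 := by
    have := Finset.sum_range_sub (fun i => d • τ (g ^ i) y) l
    rw [e, pow_zero, sub_self] at this
    rw [← this]
    refine Finset.sum_congr rfl fun i _ => ?_
    rw [map_smul, map_sub, smul_sub, ← End.mul_apply, ← map_mul, pow_succ, End.one_apply]
  rw [Finset.sum_sub_distrib, h4, zero_sub, neg_mem_iff, Finset.sum_const, Finset.card_range,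
    ← Nat.cast_smul_eq_nsmul ℂ] at h3
  refine h2 fun a i => ?_
  have := h3 a i
  rwa [map_smul, Pi.smul_apply, smul_eq_mul, map_mul, (val_natCast_eq_one_iff hM l).2 hl, one_mul] at this

theorem blK_pg (hM : IsPModular r M) (hf : ∀ g, τ g = 1 → g = 1) : IsPGroup r (blK M τ) := fun g => by
  obtain ⟨a, l, hl, e⟩ := Nat.exists_eq_pow_mul_and_not_dvd (orderOf_pos g.1).ne' r hM.1.ne_one
  exact ⟨a, Subtype.ext (blK_eq_one hM hf (pow_mem g.2 _) hl (by
    rw [Subgroup.coe_pow, ← pow_mul, ← e, pow_orderOf_eq_one]))⟩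

theorem bl_prod (x : G) (s : Multiset ℂ) (hs : ∀ ζ ∈ s, val M (ζ - 1) < 1) {u : Fin m → ℂ}
    (hu : u ∈ lat M τ) : aeval (τ x) (s.map fun ζ => X - C ζ).prod u - ((τ x - 1) ^ s.card) u ∈ latRad M τ := by
  induction s using Multiset.induction_on with
  | empty => simp
  | cons ζ s ih =>
    have h1 := ih fun a ha => hs a (Multiset.mem_cons_of_mem ha)
    have h2 : ((τ x - 1) ^ s.card) u ∈ lat M τ :=
      (blO M τ).pow_mem ((blO M τ).sub_mem (fun v hv => apply_mem_lat hv x) (one_mem _)) _ u hu
    have h3 := hs ζ (Multiset.mem_cons_self ζ s)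
    rw [Multiset.map_cons, Multiset.prod_cons, map_mul, Multiset.card_cons, pow_succ', End.mul_apply,
      End.mul_apply]
    generalize aeval (τ x) (s.map fun ζ => X - C ζ).prod u = a at h1
    generalize ((τ x - 1) ^ s.card) u = b at h1 h2
    have h4 : a - b ∈ lat M τ := fun g i => (h1 g i).le
    have := sub_mem (sub_mem (sub_mem (apply_mem_latRad h1 x) h1) (smul_mem_latRad h4 h3))
      (smul_mem_latRad h2 h3)
    convert this using 1
    simp only [map_sub, aeval_X, aeval_C, LinearMap.sub_apply, End.one_apply, Module.algebraMap_end_apply]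
    module

theorem bl_nil (hM : IsPModular r M) {x : G} {k : ℕ} (hx : x ^ r ^ k = 1) {u : Fin m → ℂ}
    (hu : u ∈ lat M τ) : ((τ x - 1) ^ m) u ∈ latRad M τ := by
  have h1 : (τ x).charpoly.roots.card = (τ x).charpoly.natDegree := IsAlgClosed.card_roots_eq_natDegree
  have := bl_prod x (τ x).charpoly.roots (M := M) (fun ζ h => by
    obtain ⟨v, hv⟩ := ((End.hasEigenvalue_iff_isRoot_charpoly _ _).2
      (isRoot_of_mem_roots h)).exists_hasEigenvector
    have e := hv.pow_apply (r ^ k)
    rw [← map_pow, hx, map_one, End.one_apply] at e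
    refine val_sub_one_lt_of_pow_prime_pow hM (k := k) (smul_left_injective ℂ hv.2 ?_)
    exact e.symm.trans (one_smul _ _).symm) hu
  rwa [prod_multiset_X_sub_C_of_monic_of_roots_card_eq (τ x).charpoly_monic h1,
    LinearMap.aeval_self_charpoly, LinearMap.zero_apply, zero_sub, neg_mem_iff, h1,
    LinearMap.charpoly_natDegree, finrank_fin_fun] at this

theorem bl_mem (hM : IsPModular r M) {x : G} {k j : ℕ} (hx : x ^ r ^ k = 1) (hj : m ≤ r ^ j) :
    x ^ r ^ j ∈ blK M τ := fun u hu => by
  have hT : τ x - 1 ∈ blO M τ := sub_mem (fun v hv => apply_mem_lat hv x : τ x ∈ blO M τ) (one_mem _)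
  obtain ⟨S, hS⟩ := (Commute.one_right (⟨_, hT⟩ : blO M τ)).exists_add_pow_prime_pow_eq hM.1 j
  have e := congrArg (fun S : blO M τ => S.1 u) hS
  simp only [SubmonoidClass.coe_pow, Subring.coe_add, Subring.coe_mul, Subring.coe_one, sub_add_cancel,
    one_pow, mul_one, LinearMap.add_apply, End.one_apply, End.mul_apply, Subring.coe_natCast,
    End.natCast_apply] at e
  rw [map_pow, e, add_right_comm, add_sub_cancel_right, ← Nat.cast_smul_eq_nsmul ℂ]
  refine add_mem ?_ (smul_mem_latRad (hT _ (S.2 u hu)) (val_prime_lt_one hM))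
  obtain ⟨c, hc⟩ := Nat.exists_eq_add_of_le hj
  rw [hc, pow_add, End.mul_apply]
  exact bl_nil hM hx (pow_mem hT c u hu)

end Lat

/-- Blichfeldt.  Let `τ` afford `χ`, `M` with `IsPModular r M`, `lat M τ`, `latRad M τ` as in
Block/Lattice.  `K = {g | ∀ u ∈ lat, τ g u - u ∈ latRad}` is a normal subgroup
(`apply_mem_lat`, `apply_mem_latRad`).  It is an `r`-group: if `g ∈ K` has prime order `l ≠ r`,
take `u₀ = τ g y - y ≠ 0`, scale it to `u ∈ lat \ latRad` (`exists_smul_mem_lat`); then
`∑ i < l, τ (g ^ i) u = 0` but is congruent to `l • u`, and `val M l = 1`.  Finally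
`x ^ r ^ j ∈ K`: the characteristic polynomial of `τ x` is a product of `n` factors `X - ζ` with
`ζ ^ r ^ k = 1`, so `val M (ζ - 1) < 1`; by induction along the factors and Cayley-Hamilton
`T ^ n` maps `lat` into `latRad` for `T = τ x - 1`; and `(1 + T) ^ r ^ j = 1 + T ^ r ^ j + r * S`
with `S` preserving `lat` (binomial theorem, `Nat.Prime.dvd_choose_pow`). -/
theorem bl {n r k j : ℕ} (h : FC G n) (hr : r.Prime) {x : G} (hx : x ^ r ^ k = 1)
    (hj : n ≤ r ^ j) : x ^ r ^ j ∈ pCore r G := by
  obtain ⟨_, ⟨m, τ, rfl⟩, h1, h2⟩ := h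
  obtain rfl : m = n := by simpa [τ.char_one] using h1
  obtain ⟨M, hM⟩ := Block.exists_isPModular hr
  exact Grp.le_pCore inferInstance (blK_pg (τ := τ) hM fun g hg => h2 g (by
    simp only [Representation.character, hg, map_one])) (bl_mem hM hx hj)

/-- `S0899.result` (second alternative, see `CTL.sylow_normal`): for `K` with `r ^ 2 ∤ |K|` either
`r ∤ |K|` (trivial Sylow subgroup) or by `S4503.result` for `K` there is a normal subgroup of
order `r`, which is the unique Sylow `r`-subgroup. -/
theorem lg {n r : ℕ} [Fact r.Prime] (h : FC G n) (hr : 2 * n + 1 < r) (P : Sylow r G) :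
    (P : Subgroup G).Normal := by
  have hp' : r.Prime := Fact.out
  obtain ⟨_, hχ, h1, h2⟩ := h
  obtain ⟨m, τ, rfl⟩ := id hχ
  obtain rfl : m = n := by simpa [τ.char_one] using h1
  refine S0899.result m τ ((injective_iff_map_eq_one τ).2 fun g hg => h2 g ?_) r
    (Or.inr ⟨by omega, fun K hK Q => ?_⟩) P
  · simp only [Representation.character, hg, map_one]
  by_cases h3 : r ∣ Nat.card K
  · by_contra c
    have := S4503.result r hp' h3 hK (fun H hH e => c ?_) _ (hχ.restrict K)
      fun g hg => Subtype.ext (h2 g hg)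
    · have e : charDegree (fun k : K => τ.character k) = m := by
        change ⌊(τ.character 1).re⌋₊ = m
        rw [h1]; simp
      erw [e] at this
      omega
    have pH : IsPGroup r H := .of_card (n := 1) (by rw [e, pow_one])
    have le : H ≤ Q := by
      have := Q.is_maximal' (Q.isPGroup'.to_sup_of_normal_right pH) le_sup_left
      exact le_sup_right.trans this.le
    obtain ⟨a, ha⟩ := Q.isPGroup'.exists_card_eq
    have h4 : a < 2 := by
      by_contra k
      exact hK ((pow_dvd_pow r (by omega)).trans (ha ▸ card_subgroup_dvd_card (Q : Subgroup K)))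
    rwa [← eq_of_le_of_card_ge le (by
      rw [e, ha]
      exact (Nat.pow_le_pow_right hp'.pos (by omega)).trans (pow_one r).le)]
  · have h9 : Nat.card Q = 1 := by
      rw [Q.card_eq_multiplicity, Nat.factorization_eq_zero_of_not_dvd h3, pow_zero]
    exact card_eq_one.mp h9 ▸ normal_bot

end Cfsg.Agent.R3C
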