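import Mathlib
import Cfsg.Agent.R3C.Bas

/-! S4881: the centralizer of a homogeneous element. -/

set_option autoImplicit false
set_option linter.unusedSectionVars false

namespace Cfsg.Agent.R3C

open Module Subgroup Cfsg Cfsg.Agent.Char Cfsg.Agent.Perm.SemiLin Cfsg.Agent.CTL Misc.Zsig

variable {p : ℕ} [hp : Fact p.Prime] {V : Type*} [AddCommGroup V] [Module (ZMod p) V] [Finite V]
  {G : Type*} [Group G] [Finite G] {ρ : G →* End (ZMod p) V} {v w : V}

/-- `ρ z ≠ 1`, so `V` is non-trivial.  The minimal polynomial `μ` of `ρ z` is irreducible (if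
`μ = f * g` then `f(ρ z) ∘ g(ρ z) = 0`, so by `hd` one factor is annihilating).  `K = AdjoinRoot μ`
is a finite field with `p ^ d` elements, `d > 0`; `φ = Ideal.Quotient.lift (span {μ}) (aeval (ρ z))`
is a ring homomorphism `K →+* End V`, `Module.compHom V φ` makes `V` a `K`-space with
`|V| = |K| ^ e`, `n = d * e`.  The root of `μ` has order `r` in `K` (`φ` is injective), so
`r ∣ p ^ d - 1`, `m ≤ d` (`hr.2.2`), `e ≤ 2`.  The centralizer of `z` acts `K`-linearly and
faithfully: `exists_char` and `FC.mono` (compare `CTL.exists_char_cent`). -/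
theorem cc (hρ : Function.Injective ρ) (hG : ¬ p ∣ Nat.card G) {n m r : ℕ}
    (hn : Nat.card V = p ^ n) (hnm : n ≤ 2 * m) (hr : IsPPD p m r) {z : G} (hz : orderOf z = r)
    (hd : ∀ f : Polynomial (ZMod p), Polynomial.aeval (ρ z) f = 0 ∨
      Function.Injective (Polynomial.aeval (ρ z) f : End (ZMod p) V)) :
    FC (centralizer ({z} : Set G)) 2 := by
  let φ₀ : Polynomial (ZMod p) →+* End (ZMod p) V := (Polynomial.aeval (ρ z)).toRingHom
  let I := RingHom.ker φ₀
  have hz1 : ρ z ≠ 1 := fun h => by
    rw [hρ (h.trans (map_one ρ).symm), orderOf_one] at hz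
    exact hr.1.one_lt.ne hz
  have : Nontrivial (End (ZMod p) V) := ⟨_, _, hz1⟩
  have hI : I.IsPrime := ⟨RingHom.ker_ne_top φ₀, fun {f g} h => (hd f).imp id fun hf =>
    LinearMap.ext fun u => hf (by
      rw [LinearMap.zero_apply, map_zero]
      exact LinearMap.congr_fun ((map_mul φ₀ f g).symm.trans h) u)⟩
  have : Finite (End (ZMod p) V) := DFunLike.finite _
  have : Finite (Polynomial (ZMod p) ⧸ I) := Finite.of_injective _ (RingHom.kerLift_injective φ₀)
  have : I.IsMaximal := Ideal.Quotient.maximal_of_isField _ (Finite.isField_of_domain _)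
  let _ := Ideal.Quotient.field I
  let K := Polynomial (ZMod p) ⧸ I
  let φ : K →+* End (ZMod p) V := RingHom.kerLift φ₀
  let _ : Module K V := Module.compHom V φ
  have : Module.Finite K V := Module.Finite.of_finite
  have hc : ∀ g ∈ centralizer ({z} : Set G), ∀ k : K, Commute (ρ g) (φ k) := by
    intro g hg k
    obtain ⟨f, rfl⟩ := Ideal.Quotient.mk_surjective k
    have h0 : Commute (ρ g) (ρ z) := (show Commute g z from (hg z rfl).symm).map ρ
    change Commute (ρ g) (Polynomial.aeval (ρ z) f)
    induction f using Polynomial.induction_on' with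
    | add a b h1 h2 => rw [map_add]; exact h1.add_right h2
    | monomial i a =>
      rw [Polynomial.aeval_monomial]
      exact (Algebra.commute_algebraMap_right _ _).mul_right (h0.pow_right i)
  let σ : centralizer ({z} : Set G) →* End K V :=
    { toFun := fun g =>
        { toFun := ρ g, map_add' := map_add _,
          map_smul' := fun k w => LinearMap.congr_fun (hc g g.2 k).eq w }
      map_one' := by ext w; simp
      map_mul' := fun g h => by ext w; simp }
  have hσ : Function.Injective σ := fun g h e => Subtype.ext (hρ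
    (LinearMap.ext fun w => LinearMap.congr_fun e w))
  refine FC.mono (exists_char (p := p) σ hσ fun h =>
    hG (h.trans (Subgroup.card_subgroup_dvd_card _))) ?_
  have h1 : Nat.card K = p ^ finrank (ZMod p) K := by
    rw [Module.natCard_eq_pow_finrank (K := ZMod p), Nat.card_zmod]
  have h2 : n = finrank (ZMod p) K * finrank K V := by
    rw [Module.natCard_eq_pow_finrank (K := K), h1, ← pow_mul] at hn
    exact (Nat.pow_right_injective hp.out.two_le hn).symm
  have h3 : 0 < finrank (ZMod p) K := Module.finrank_pos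
  have h4 : φ (Ideal.Quotient.mk I Polynomial.X) = ρ z := Polynomial.aeval_X _
  have h5 : (Ideal.Quotient.mk I Polynomial.X : K) ≠ 0 := fun h => by
    rw [h, map_zero] at h4
    exact not_isUnit_zero (h4 ▸ (Group.isUnit z).map ρ)
  have := Fintype.ofFinite K
  have h6 := congrArg φ (FiniteField.pow_card_sub_one_eq_one _ h5)
  rw [map_pow, h4, map_one, ← Nat.card_eq_fintype_card, h1, ← map_pow, ← map_one ρ] at h6
  have h7 : m ≤ finrank (ZMod p) K := not_lt.1 fun h =>
    hr.2.2 _ h3 h (hz ▸ orderOf_dvd_of_pow_eq_one (hρ h6))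
  exact Nat.le_of_mul_le_mul_left (by omega) h3

end Cfsg.Agent.R3C
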