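import Mathlib
import Cfsg.Agent.R3C.Bl
import Cfsg.Agent.CTL.Semi
import Cfsg.Agent.S4504

/-! S4881: primitive prime divisors of the full dimension. -/

set_option autoImplicit false
set_option linter.unusedSectionVars false

namespace Cfsg.Agent.R3C

open Module Subgroup Cfsg Cfsg.Agent.Char Cfsg.Agent.Perm.SemiLin Cfsg.Agent.CTL Misc.Zsig

variable {p : ℕ} [hp : Fact p.Prime] {V : Type*} [AddCommGroup V] [Module (ZMod p) V] [Finite V]
  {G : Type*} [Group G] [Finite G] {ρ : G →* End (ZMod p) V} {v w : V}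

theorem cx_ineq {q n : ℕ} (hq : 10 ≤ q) (hn : 2 ≤ n) : q * n ^ 2 + 2 ≤ (q + 1) ^ n := by
  induction n, hn using Nat.le_induction with
  | base => nlinarith
  | succ n hn ih =>
    have h1 : (n + 1) ^ 2 ≤ q * n ^ 2 := by nlinarith
    have h2 := Nat.mul_le_mul_left q h1
    have h3 := Nat.mul_le_mul_right (q + 1) ih
    rw [pow_succ (q + 1)]
    nlinarith

/-- `semi_abelian`, `Two.of_ab`: `(p - 1) n ^ 2 < p ^ n - 1` (compare `CTL.ineq_c`). -/
theorem Two.of_semi (h : Two ρ v w) (hp11 : 11 ≤ p) {n : ℕ} (hn2 : 2 ≤ n)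
    (hn : Nat.card V = p ^ n) (hs : IsSemiLin ρ n) : p ≤ 2 * Nat.card (ConjClasses G) := by
  refine h.of_ab (semi_abelian h.inj (by omega) hs) ?_
  have := cx_ineq (q := p - 1) (by omega) hn2
  rw [Nat.sub_add_cancel (by omega)] at this
  omega

/-- `exists_large` for `p, n`.  If `2 n + 1 < r`: `lg` (with `fc_of_inj`) and `semi_of_normal`.  If
`r ^ 2 ∣ p ^ n - 1`: `semi_of_sq`.  The only exception with `p ≥ 11` prime is `(17, 6)`: `13` is
primitive; `13 ^ 2 ∣ |G|`: `semi_of_sq`; a normal subgroup of order 13: `semi_of_normal`; otherwise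
`S4504.result` gives `G ⧸ center G ≃* PSL(2, 13)` of order 1092 (`MinS.card_PSL2_of` or
`KSG.M2.card_PSL2`), so `Ab G 1092` and `16 * 1092 ^ 2 < 17 ^ 6 - 1`. -/
theorem Two.caseX (h : Two ρ v w) (hp11 : 11 ≤ p) {n : ℕ} (hn3 : 3 ≤ n) (hn : Nat.card V = p ^ n)
    (hd : ∀ r e, IsPPD p n r → r ^ e ∣ p ^ n - 1 → r ^ e ∣ Nat.card G) :
    p ≤ 2 * Nat.card (ConjClasses G) := by
  have hn0 : 0 < n := by omega
  have := nontrivial_of_card hn0 hn
  have fc := fc_of_inj h.inj h.cop hn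
  rcases exists_large (q := p) (by omega) hn3 with ⟨r, hr, h1 | h1⟩ | h1
  · have := Fact.mk hr.1
    obtain ⟨x, hx⟩ := exists_prime_orderOf_dvd_card' (G := G) r
      (by simpa using hd r 1 hr (by simpa using hr.2.1))
    obtain ⟨P, hP⟩ := (IsPGroup.of_card (G := zpowers x) (n := 1)
      (by rw [Nat.card_zpowers, hx, pow_one])).exists_le_sylow
    have := lg fc h1 P
    exact h.of_semi hp11 (by omega) hn
      (semi_of_normal h.inj hn hr hx P.isPGroup' (hP (mem_zpowers x)))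
  · exact h.of_semi hp11 (by omega) hn (semi_of_sq h.inj h.cop hn0 hn hr (hd r 2 hr h1))
  obtain ⟨rfl, rfl⟩ : p = 17 ∧ n = 6 := by
    simp only [List.mem_cons, Prod.mk.injEq, List.not_mem_nil, or_false] at h1
    omega
  have hr : IsPPD 17 6 13 := ⟨by norm_num, by norm_num, fun k h0 h6 => by
    interval_cases k <;> norm_num⟩
  have := Fact.mk hr.1
  have d1 : 13 ∣ Nat.card G := by simpa using hd 13 1 hr (by norm_num)
  by_cases d2 : 13 ^ 2 ∣ Nat.card G
  · exact h.of_semi hp11 (by omega) hn (semi_of_sq h.inj h.cop hn0 hn hr d2)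
  by_cases d3 : ∃ H : Subgroup G, H.Normal ∧ Nat.card H = 13
  · obtain ⟨H, _, hH⟩ := d3
    obtain ⟨x, hx⟩ := exists_prime_orderOf_dvd_card' (G := H) 13 hH.symm.dvd
    exact h.of_semi hp11 (by omega) hn (semi_of_normal h.inj hn hr ((orderOf_coe x).trans hx)
      (IsPGroup.of_card (n := 1) (by rw [hH, pow_one])) x.2)
  obtain ⟨χ, hχ, h2, hf⟩ := fc
  obtain ⟨e⟩ := S4504.result 13 hr.1 d1 d2 (fun H h1 h2 => d3 ⟨H, h1, h2⟩) χ hχ hf (by
    rw [charDegree, h2]; simp)
  have c := Class.gcd_mul_card_PSL2 (F := ZMod 13)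
  rw [ZMod.card, ← Nat.card_congr e.toEquiv] at c
  refine h.of_ab (i := 1092) ⟨center G, fun a ha b _ => (mem_center_iff.1 ha b).symm, ?_⟩
    (by rw [hn]; norm_num)
  rw [index]
  norm_num at c
  omega

end Cfsg.Agent.R3C
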