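import Mathlib
import Cfsg.Agent.R3C.Bas

/-! S4881: counting eigenvalues on the two orbits. -/

set_option autoImplicit false
set_option linter.unusedSectionVars false

namespace Cfsg.Agent.R3C

open Module Subgroup Cfsg Cfsg.Agent.Char Cfsg.Agent.Perm.SemiLin Cfsg.Agent.CTL Misc.Zsig

variable {p : ℕ} [hp : Fact p.Prime] {V : Type*} [AddCommGroup V] [Module (ZMod p) V] [Finite V]
  {G : Type*} [Group G] [Finite G] {ρ : G →* End (ZMod p) V} {v w : V}

theorem cov_le (hs : ∀ c : ZMod p, c ≠ 0 → ∀ u, c • u ∈ orb ρ u) {x : Bool → V} (x0 : ∀ i, x i ≠ 0)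
    (xd : ∀ i, Disjoint (orb ρ (x i)) (orb ρ (x !i))) (f : End (ZMod p) V) :
    Nat.card {q : ZMod p × Bool // ∃ u ∈ orb ρ (x q.2), f u = q.1 • u} ≤ finrank (ZMod p) V := by
  classical
  rw [Nat.card_congr (Equiv.subtypeProdEquivSigmaSubtype
    fun (c : ZMod p) (i : Bool) => ∃ u ∈ orb ρ (x i), f u = c • u), Nat.card_eq_fintype_card]
  have ch : ∀ (c : ZMod p) (i : {i : Bool // ∃ u ∈ orb ρ (x i), f u = c • u}),
      ∃ u ∈ orb ρ (x i.1), f u = c • u := fun _ i => i.2
  choose y y1 y2 using ch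
  have le : ∀ c, Submodule.span (ZMod p) (Set.range (y c)) ≤ f.eigenspace c := fun c =>
    Submodule.span_le.2 (by rintro _ ⟨i, rfl⟩; exact End.mem_eigenspace_iff.2 (y2 c i))
  refine (linearIndependent_iUnion_finite (R := ZMod p) (f := y) (fun c => ?_)
    fun c t _ hc => ?_).fintype_card_le_finrank
  · rw [linearIndependent_iff_notMem_span]
    intro i hi
    obtain ⟨z, hz, sub⟩ : ∃ z ∈ orb ρ (x !i.1), y c '' (Set.univ \ {i}) ⊆ {z} := by
      have k : ∀ j : {i : Bool // ∃ u ∈ orb ρ (x i), f u = c • u}, j ≠ i → j.1 = !i.1 := fun j hj =>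
        Bool.eq_not_of_ne fun e => hj (Subtype.ext e)
      by_cases e : ∃ j, j ≠ i
      · obtain ⟨j, hj⟩ := e
        refine ⟨y c j, k j hj ▸ y1 c j, ?_⟩
        rintro _ ⟨l, hl, rfl⟩
        exact congrArg (y c) (Subtype.ext ((k l hl.2).trans (k j hj).symm))
      · refine ⟨_, self_mem_orb ρ _, ?_⟩
        rintro _ ⟨l, hl, rfl⟩
        exact absurd ⟨l, hl.2⟩ e
    obtain ⟨a, ha⟩ := Submodule.mem_span_singleton.1 (Submodule.span_mono sub hi)
    have a0 : a ≠ 0 := fun e => zero_notMem_orb (x0 i.1) (by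
      have := y1 c i
      rwa [← ha, e, zero_smul] at this)
    exact Set.disjoint_left.1 (xd i.1) (y1 c i) (by rw [← ha, ← orb_eq hz]; exact hs a a0 z)
  · exact (End.eigenspaces_iSupIndep f c).mono (le c) (iSup₂_le fun j hj => (le j).trans
      (le_iSup₂_of_le j (show j ≠ c from fun e => hc (e ▸ hj)) le_rfl))

/-- For `g : G` let `S g` be the set of pairs `(i, c)`, `i : Bool`, `c : (ZMod p)ˣ`, such that
`ρ g u = c • u` for some `u` in the `i`-th orbit.  `S g` depends only on the class of `g`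
(`apply_mem_orb`), every pair lies in some `S g` (by `hs` for `v`, `w`), `S 1` has two elements
(`c = 1`), and `|S g| ≤ n`: choose `u` for each pair; these vectors are linearly independent
(different `c`: `Module.End.eigenspaces_iSupIndep`; the same `c`: two non-zero vectors in different
orbits are not proportional by `hs`, `orb_eq`, `Two.disj`).  Or: for each `c` the number of `i` is
at most `finrank (eigenspace c)` and these dimensions add up to at most `n`. -/
theorem Two.cov (h : Two ρ v w) (hs : ∀ c : ZMod p, c ≠ 0 → ∀ u, c • u ∈ orb ρ u) {n : ℕ}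
    (hn : Nat.card V = p ^ n) : 2 * (p - 1) ≤ 2 + (Nat.card (ConjClasses G) - 1) * n := by
  classical
  obtain ⟨x, x0, xd⟩ : ∃ x : Bool → V, (∀ i, x i ≠ 0) ∧
      ∀ i, Disjoint (orb ρ (x i)) (orb ρ (x !i)) :=
    ⟨fun i => bif i then v else w, fun i => by cases i; exacts [h.hw, h.hv],
      fun i => by cases i; exacts [h.disj.symm, h.disj]⟩
  have e : finrank (ZMod p) V = n := by
    rw [Module.natCard_eq_pow_finrank (K := ZMod p), Nat.card_zmod] at hn
    exact Nat.pow_right_injective hp.out.two_le hn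
  have := Fintype.ofFinite (ConjClasses G)
  let S : ConjClasses G → Finset (ZMod p × Bool) := fun C =>
    Finset.univ.filter fun q => ∃ u ∈ orb ρ (x q.2), ρ (Quotient.out C) u = q.1 • u
  have k1 : ∀ C, (S C).card ≤ n := fun C => by
    have := cov_le hs x0 xd (ρ (Quotient.out C))
    rwa [e, Nat.card_eq_fintype_card, Fintype.card_subtype] at this
  have cj : ∀ g : G, ∃ k : G, k * g * k⁻¹ = Quotient.out (ConjClasses.mk g) := fun g =>
    isConj_iff.1 (ConjClasses.mk_eq_mk_iff_isConj.1 (Quotient.out_eq (ConjClasses.mk g)).symm)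
  have k2 : (S (ConjClasses.mk 1)).card ≤ 2 := by
    refine (Finset.card_le_card (t := {1} ×ˢ Finset.univ) fun q hq => ?_).trans (by simp)
    obtain ⟨u, hu, e⟩ := (Finset.mem_filter.1 hq).2
    obtain ⟨k, hk⟩ := cj 1
    rw [← hk, mul_one, mul_inv_cancel, map_one, End.one_apply] at e
    have u0 : u ≠ 0 := fun c => zero_notMem_orb (x0 q.2) (c ▸ hu)
    have : q.1 = 1 := smul_left_injective (ZMod p) u0 (e.symm.trans (one_smul _ u).symm)
    exact Finset.mem_product.2 ⟨Finset.mem_singleton.2 this, Finset.mem_univ _⟩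
  have k3 : (Finset.univ.erase 0) ×ˢ Finset.univ ⊆ Finset.univ.biUnion S := fun q hq => by
    obtain ⟨g, hg⟩ := hs q.1 (Finset.ne_of_mem_erase (Finset.mem_product.1 hq).1) (x q.2)
    obtain ⟨k, hk⟩ := cj g
    refine Finset.mem_biUnion.2 ⟨ConjClasses.mk g, Finset.mem_univ _,
      Finset.mem_filter.2 ⟨Finset.mem_univ _, ρ k (x q.2), ⟨k, rfl⟩, ?_⟩⟩
    rw [← hk, ← End.mul_apply, ← map_mul, inv_mul_cancel_right, map_mul, End.mul_apply, hg, map_smul]
  have k4 := (Finset.card_le_card k3).trans Finset.card_biUnion_le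
  rw [← Finset.add_sum_erase _ _ (Finset.mem_univ (ConjClasses.mk 1)), Finset.card_product,
    Finset.card_erase_of_mem (Finset.mem_univ _), Finset.card_univ, Finset.card_univ, ZMod.card,
    Fintype.card_bool, mul_comm] at k4
  refine k4.trans (Nat.add_le_add k2 ((Finset.sum_le_card_nsmul _ _ n fun C _ => k1 C).trans ?_))
  rw [Finset.card_erase_of_mem (Finset.mem_univ _), Finset.card_univ, Nat.card_eq_fintype_card,
    smul_eq_mul]

end Cfsg.Agent.R3C
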