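import Mathlib
import Cfsg.Agent.R3C.CC
import Cfsg.Agent.Char.Blichfeldt

/-! S4881: elements of large prime power order. -/

set_option autoImplicit false
set_option linter.unusedSectionVars false

namespace Cfsg.Agent.R3C

open Module Subgroup Cfsg Cfsg.Agent.Char Cfsg.Agent.Perm.SemiLin Cfsg.Agent.CTL Misc.Zsig

variable {p : ℕ} [hp : Fact p.Prime] {V : Type*} [AddCommGroup V] [Module (ZMod p) V] [Finite V]
  {G : Type*} [Group G] [Finite G] {ρ : G →* End (ZMod p) V} {v w : V}

/-- An irreducible faithful `r`-group: take `z ∈ center G` of order `r` (if `G` is non-trivial).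
For a polynomial `f` the kernel of `f(ρ z)` is invariant, so `cc` applies, `centralizer {z} = ⊤`,
and `comm_of_isPGroup_of_faithful_lt` (`2 < r` as `m < r`, `IsPPD.lt`) shows that `G` is abelian;
`isCyclic_of_irr`. -/
theorem cyc_of_irr [Nontrivial V] (hρ : Function.Injective ρ) (hirr : Irr ρ) {n m r : ℕ}
    (hn : Nat.card V = p ^ n) (hnm : n ≤ 2 * m) (hm : 2 ≤ m) (hr : IsPPD p m r)
    (hR : IsPGroup r G) : IsCyclic G := by
  haveI := Fact.mk hr.1
  rcases subsingleton_or_nontrivial G with _ | _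
  · infer_instance
  have hG : ¬ p ∣ Nat.card G := fun c => by
    obtain ⟨k, hk⟩ := IsPGroup.iff_card.1 hR
    rw [hk] at c
    exact ppd_ne (by omega) hr ((Nat.prime_dvd_prime_iff_eq hp.out hr.1).1 (hp.out.dvd_of_dvd_pow c)).symm
  haveI := hR.center_nontrivial
  obtain ⟨k, hk, e⟩ := (hR.to_subgroup (center G)).nontrivial_iff_card.1 inferInstance
  obtain ⟨⟨z, hz⟩, ho⟩ := exists_prime_orderOf_dvd_card' (G := center G) r (e ▸ dvd_pow_self r hk.ne')
  rw [← orderOf_coe] at ho
  obtain ⟨χ, h1, h2, h3⟩ := cc hρ hG hn hnm hr ho fun f => by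
    have hc : ∀ g, Commute (ρ g) (Polynomial.aeval (ρ z) f) := fun g =>
      Algebra.commute_of_mem_adjoin_singleton_of_commute (Polynomial.aeval_mem_adjoin_singleton _ _)
        (Commute.map (mem_center_iff.1 hz g) ρ)
    rcases hirr (LinearMap.ker (Polynomial.aeval (ρ z) f)) (fun g u hu => by
      rw [LinearMap.mem_ker] at hu ⊢
      rw [← End.mul_apply, ← (hc g).eq, End.mul_apply, hu, map_zero]) with e | e
    · exact Or.inr (LinearMap.ker_eq_bot.1 e)
    · exact Or.inl (LinearMap.ker_eq_top.1 e)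
  have hlt : charDegree χ < r := by
    have := hr.lt (by omega) hp.out.one_lt
    rw [charDegree, h2, Complex.natCast_re, Nat.floor_natCast]
    omega
  have hc := comm_of_isPGroup_of_faithful_lt h1 h3 hlt ((hR.to_subgroup _).to_subgroup ⊤)
  have hm' : ∀ g, g ∈ centralizer ({z} : Set G) := fun g =>
    mem_centralizer_singleton_iff.2 (mem_center_iff.1 hz g)
  have := isCyclic_of_irr hρ (A := ⊤) (fun a _ b _ =>
    congrArg Subtype.val (hc ⟨a, hm' a⟩ (mem_top _) ⟨b, hm' b⟩ (mem_top _)))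
    fun W hW => hirr W fun g => hW g (mem_top g)
  exact isCyclic_of_surjective _ (topEquiv (G := G)).surjective

/-- Let `R` be a Sylow `r`-subgroup and `W` a minimal non-zero `R`-invariant subspace.  Let `σ` be
the action of `R` on `W` (`Representation.subrepresentation`), `R ⧸ σ.ker` acts faithfully
(`QuotientGroup.lift`) and irreducibly, so it is cyclic (`cyc_of_irr`; `r ≠ p` by `ppd_ne`),
generated by the image of some `x ∈ R`.  For `0 ≠ u ∈ W`, an element of `R` fixing `u` lies in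
`σ.ker` (its fixed space in `W` is invariant as the image is abelian), so
`[R : R ⊓ stab u] = |R ⧸ σ.ker|` divides `orderOf x`.  And `r ^ e ∣ (stab u).index`, which divides
`(R ⊓ stab u).index = [R : R ⊓ stab u] * R.index` with `r ∤ R.index`. -/
theorem ex (hρ : Function.Injective ρ) {m r e : ℕ} (hn : Nat.card V = p ^ (2 * m)) (hm : 2 ≤ m)
    (hr : IsPPD p m r) (hv : ∀ u : V, u ≠ 0 → r ^ e ∣ (stab ρ u).index) :
    ∃ (x : G) (k : ℕ), x ^ r ^ k = 1 ∧ r ^ e ∣ orderOf x := by
  have _ := hρ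
  haveI := Fact.mk hr.1
  haveI : Nontrivial V := by
    rw [← Finite.one_lt_card_iff_nontrivial, hn]
    exact Nat.one_lt_pow (by omega) hp.out.one_lt
  obtain ⟨R⟩ : Nonempty (Sylow r G) := inferInstance
  obtain ⟨W, ⟨h0, hW⟩, hmin⟩ := WellFounded.has_min (wellFounded_lt (α := Submodule (ZMod p) V))
    {W | W ≠ ⊥ ∧ ∀ a ∈ R, ∀ u ∈ W, ρ a u ∈ W} ⟨⊤, top_ne_bot, fun _ _ _ _ => Submodule.mem_top⟩
  haveI : Nontrivial W := Submodule.nontrivial_iff_ne_bot.2 h0
  let σ : R →* End (ZMod p) W := Representation.subrepresentation (ρ.comp (R : Subgroup G).subtype) W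
    fun g u hu => hW g g.2 u hu
  let τ : R ⧸ σ.ker →* End (ZMod p) W := QuotientGroup.lift σ.ker σ le_rfl
  have hτ : Function.Injective τ := (injective_iff_map_eq_one τ).2 fun q hq => by
    obtain ⟨x, rfl⟩ := QuotientGroup.mk_surjective q
    exact (QuotientGroup.eq_one_iff x).2 hq
  have hirr : Irr τ := fun U hU => by
    by_cases c : U = ⊥
    · exact Or.inl c
    refine Or.inr (Submodule.map_injective_of_injective W.injective_subtype ?_)
    rw [Submodule.map_subtype_top]
    refine (Submodule.map_subtype_le W U).eq_of_not_lt (hmin _ ⟨fun e => c ?_, ?_⟩)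
    · exact Submodule.map_injective_of_injective W.injective_subtype (by rw [e, Submodule.map_bot])
    · rintro a ha _ ⟨u, hu, rfl⟩
      exact ⟨_, hU ((⟨a, ha⟩ : R) : R ⧸ σ.ker) u hu, rfl⟩
  have hle : finrank (ZMod p) W ≤ 2 * m := finrank_eq_of_card hn ▸ W.finrank_le
  have hc := cyc_of_irr hτ hirr (card_submodule W) hle hm hr (R.isPGroup'.to_quotient _)
  obtain ⟨q, hq⟩ := IsCyclic.exists_ofOrder_eq_natCard (α := R ⧸ σ.ker)
  obtain ⟨x, rfl⟩ := QuotientGroup.mk'_surjective _ q
  obtain ⟨k, hk⟩ := R.isPGroup' x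
  refine ⟨x, k, congrArg Subtype.val hk, ?_⟩
  obtain ⟨u, hu, hu0⟩ := W.ne_bot_iff.1 h0
  have h1 : σ.ker ≤ (stab ρ u).subgroupOf R := fun a ha =>
    congrArg Subtype.val (LinearMap.congr_fun ha (⟨u, hu⟩ : W))
  have h2 : (stab ρ u).relIndex R ∣ orderOf (x : G) := by
    rw [orderOf_coe]
    exact (index_dvd_of_le h1).trans (hq.symm.dvd.trans (orderOf_map_dvd _ x))
  have h3 := (hv u hu0).trans (index_dvd_of_le (inf_le_left : stab ρ u ⊓ R ≤ _))
  rw [← relIndex_mul_index inf_le_right, inf_relIndex_right] at h3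
  exact (((Nat.Prime.coprime_iff_not_dvd hr.1).2 R.not_dvd_index).pow_left e).dvd_of_dvd_mul_right h3
    |>.trans h2

end Cfsg.Agent.R3C
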