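import Mathlib
import Cfsg.Agent.R3C.Bas

/-! S4881: a normal abelian subgroup with two components. -/

set_option autoImplicit false
set_option linter.unusedSectionVars false

namespace Cfsg.Agent.R3C

open Module Subgroup Cfsg Cfsg.Agent.Char Cfsg.Agent.Perm.SemiLin Cfsg.Agent.CTL Misc.Zsig

variable {p : ℕ} [hp : Fact p.Prime] {V : Type*} [AddCommGroup V] [Module (ZMod p) V] [Finite V]
  {G : Type*} [Group G] [Finite G] {ρ : G →* End (ZMod p) V} {v w : V}

/-- Copy of `CTL.semi_abelian` without injectivity. -/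
theorem semi_comm {n : ℕ} (hn0 : 0 < n) (hs : IsSemiLin ρ n) :
    ∃ B : Subgroup G, (∀ a ∈ B, ∀ b ∈ B, ρ a * ρ b = ρ b * ρ a) ∧ B.index ≤ n := by
  obtain ⟨f, hf⟩ := hs
  choose a σ ha hf using hf
  have hmul : ∀ g k w, a (g * k) * σ (g * k) w = a g * σ g (a k) * σ g (σ k w) := fun g k w => by
    obtain ⟨v, rfl⟩ := f.surjective w
    rw [← hf, map_mul, End.mul_apply, hf, hf, map_mul, mul_assoc]
  have hma : ∀ g k, a (g * k) = a g * σ g (a k) := fun g k => by simpa using hmul g k 1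
  let τ : G →* (GaloisField p n ≃ₐ[ZMod p] GaloisField p n) := MonoidHom.mk'
    (fun g => AlgEquiv.ofRingEquiv (f := σ g) fun x => by
      rw [← ZMod.natCast_zmod_val x, map_natCast, map_natCast])
    fun g k => AlgEquiv.ext fun w => mul_left_cancel₀ (ha _) ((hmul g k w).trans (by rw [hma]; rfl))
  have hτ : ∀ g ∈ τ.ker, ∀ w, σ g w = w := fun g hg w => AlgEquiv.congr_fun hg w
  refine ⟨τ.ker, fun g hg k hk => LinearMap.ext fun v => f.injective ?_, Nat.le_of_dvd hn0 ?_⟩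
  · rw [End.mul_apply, End.mul_apply, hf, hf, hf, hf, hτ g hg, hτ k hk, hτ k hk,
      hτ g hg, mul_left_comm]
  · rw [index_ker]
    exact (card_subgroup_dvd_card _).trans (by
      rw [IsGalois.card_aut_eq_finrank, GaloisField.finrank p hn0.ne'])

theorem lnb_one {m : ℕ} (hm : 0 < m) {A H : Subgroup G} [A.Normal] (hc : ∀ a ∈ A, ∀ b ∈ A, a * b = b * a)
    {W : Submodule (ZMod p) V} (h1 : MinInv ρ A W) (hc1 : Nat.card W = p ^ m) (hA : A ≤ H)
    (hH : ∀ g ∈ H, W.map (ρ g) = W) :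
    ∃ B : Subgroup H, (∀ a ∈ B, ∀ b ∈ B, ∀ u ∈ W, ρ (a * b) u = ρ (b * a) u) ∧ B.index ≤ m := by
  have := Submodule.nontrivial_iff_ne_bot.2 h1.ne
  obtain ⟨B, b1, b2⟩ := semi_comm hm (semilinear_of_normal (Representation.subrepresentation (ρ.comp H.subtype) W
    fun g u hu => (hH g g.2).le ⟨u, hu, rfl⟩) (A.subgroupOf H) (fun a ha b hb => by
      rw [← map_mul, ← map_mul, show a * b = b * a from Subtype.ext (hc _ ha _ hb)]) (fun U hU =>
      (h1.min (U.map W.subtype) (Submodule.map_subtype_le _ _) (by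
        rintro a ha _ ⟨u, hu, rfl⟩
        exact ⟨_, hU ⟨a, hA ha⟩ ha u hu, rfl⟩)).imp
        (fun e => Submodule.map_injective_of_injective W.subtype_injective (e.trans (Submodule.map_bot _).symm))
        fun e => Submodule.map_injective_of_injective W.subtype_injective
          (e.trans (Submodule.map_subtype_top _).symm)) hc1)
  refine ⟨B, fun a ha b hb u hu => ?_, b2⟩
  rw [map_mul, map_mul]
  exact congrArg Subtype.val (LinearMap.congr_fun (b1 a ha b hb) ⟨u, hu⟩)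

/-- `H = {g | W₁.map (ρ g) = W₁}` has index at most 2 (by `hperm`; `W₁ ≠ W₂`), stabilizes `W₁` and
`W₂` and contains `A`.  For `i = 1, 2` let `σ i` be the action of `H` on `W i`
(`Representation.subrepresentation`); `semilinear_of_normal (σ i) (A.subgroupOf H)` and
`semi_comm` give `B i ≤ H` of index at most `m` with commuting images on `W i`.  `B 1 ⊓ B 2` has
index at most `m ^ 2` (`index_inf_le`) and is abelian as `V = W₁ ⊕ W₂`; `Ab.of_sub`. -/
theorem ln_imp (hρ : Function.Injective ρ) {m : ℕ} (hm : 0 < m) {A : Subgroup G} [A.Normal]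
    (hc : ∀ a ∈ A, ∀ b ∈ A, a * b = b * a) {W₁ W₂ : Submodule (ZMod p) V} (h1 : MinInv ρ A W₁)
    (h2 : MinInv ρ A W₂) (hc1 : Nat.card W₁ = p ^ m) (hc2 : Nat.card W₂ = p ^ m)
    (h12 : IsCompl W₁ W₂) (hperm : ∀ g, (W₁.map (ρ g) = W₁ ∧ W₂.map (ρ g) = W₂) ∨
      (W₁.map (ρ g) = W₂ ∧ W₂.map (ρ g) = W₁)) : Ab G (m ^ 2 * 2) := by
  have k : ∀ (a b : G) (W : Submodule (ZMod p) V), W.map (ρ (a * b)) = (W.map (ρ b)).map (ρ a) := fun a b W => by
    rw [map_mul, End.mul_eq_comp, Submodule.map_comp]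
  have k1 : ∀ W : Submodule (ZMod p) V, W.map (ρ 1) = W := fun W => by
    rw [map_one, End.one_eq_id, Submodule.map_id]
  have ne : W₂ ≠ W₁ := fun e => h1.ne (disjoint_self.1 (e ▸ h12.disjoint))
  let H : Subgroup G :=
    { carrier := {g | W₁.map (ρ g) = W₁ ∧ W₂.map (ρ g) = W₂}
      one_mem' := ⟨k1 _, k1 _⟩
      mul_mem' := fun {a b} ha hb => ⟨by rw [k, hb.1, ha.1], by rw [k, hb.2, ha.2]⟩
      inv_mem' := fun {a} ha => ⟨by conv_lhs => rw [← ha.1, ← k, inv_mul_cancel, k1],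
        by conv_lhs => rw [← ha.2, ← k, inv_mul_cancel, k1]⟩ }
  have hA : A ≤ H := fun a ha => (hperm a).resolve_right fun e => by
    have : W₂ ≤ W₁ := e.1.ge.trans (Submodule.map_le_iff_le_comap.2 (h1.inv a ha))
    exact h2.ne (h12.disjoint.symm.eq_bot_of_le this)
  obtain ⟨B₁, a1, a2⟩ := lnb_one hm hc h1 hc1 hA fun g hg => hg.1
  obtain ⟨B₂, b1, b2⟩ := lnb_one hm hc h2 hc2 hA fun g hg => hg.2
  refine Ab.of_sub H ⟨B₁ ⊓ B₂, fun a ha b hb => Subtype.ext (hρ (LinearMap.ext fun u => ?_)),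
    index_inf_le.trans ((Nat.mul_le_mul a2 b2).trans (pow_two m).ge)⟩ ?_
  · obtain ⟨x, hx, y, hy, rfl⟩ := Submodule.mem_sup.1 (h12.sup_eq_top.ge (Submodule.mem_top (x := u)))
    rw [map_add, map_add]
    exact congrArg₂ _ (a1 a ha.1 b hb.1 x hx) (b1 a ha.2 b hb.2 y hy)
  · by_cases e : H = ⊤
    · rw [e, index_top]; omega
    obtain ⟨a, -, ha⟩ := SetLike.exists_of_lt (lt_top_iff_ne_top.2 e)
    have ha' := (hperm a).resolve_left ha
    refine ((index_eq_two_iff (H := H)).2 ⟨a, fun b => (hperm b).elim (fun hb => .inr ⟨hb, fun r => ne ?_⟩)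
      fun hb => .inl ⟨⟨by rw [k, ha'.1, hb.2], by rw [k, ha'.2, hb.1]⟩, fun r => ne (hb.1.symm.trans r.1)⟩⟩).le
    have := r.1
    rwa [k, ha'.1, hb.2] at this

end Cfsg.Agent.R3C
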