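import Mathlib
import Cfsg.Agent.R3C.Bas
import Cfsg.Agent.CTL.Two
import Cfsg.Agent.Perm.RegLin

/-! S4881: dimension two. -/

set_option autoImplicit false
set_option linter.unusedSectionVars false

namespace Cfsg.Agent.R3C

open Module Subgroup Cfsg Cfsg.Agent.Char Cfsg.Agent.Perm.SemiLin Cfsg.Agent.CTL Misc.Zsig
open Cfsg.Agent.Class.Dickson MatrixGroups

variable {p : ℕ} [hp : Fact p.Prime] {V : Type*} [AddCommGroup V] [Module (ZMod p) V] [Finite V]
  {G : Type*} [Group G] [Finite G] {ρ : G →* End (ZMod p) V} {v w : V}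

/-- Copy of the proof of `CTL.deg_two` (file CTL/Two), returning the abelian subgroup
`(zpowers a).comap (mk' π.ker)` itself.  In the first case of `tame_algClosed` (a common fixed
point `x`, `G ⧸ π.ker` abelian without unipotent elements) show that `G` is abelian: e.g. the image
is cyclic (move `x` to `inf`; `pmk a ↦ a 0 0 / a 1 1` is a homomorphism to `ℂˣ` with kernel
`unip`), or a non-identity element has a second fixed point `y` which is fixed by all, and the pair
case applies.  Alternative: apply `deg_two` with `S = center G` when all abelian normal subgroups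
are central (index at most 2: `Or.inl`); otherwise take a non-central `a` in an abelian normal `A`:
its centralizer is abelian (`scalar_of_comm_of_anticomm`) and `a` has at most two conjugates. -/
theorem deg2 (h : FC G 2) : Ab G 2 ∨ ∃ (Z : Subgroup G) (_ : Z.Normal), Z ≤ center G ∧
    (Nonempty (G ⧸ Z ≃* alternatingGroup (Fin 4)) ∨ Nonempty (G ⧸ Z ≃* Equiv.Perm (Fin 4)) ∨
      Nonempty (G ⧸ Z ≃* alternatingGroup (Fin 5))) := by
  obtain ⟨_, ⟨n, ρ, rfl⟩, h2, hf⟩ := h
  obtain rfl : n = 2 := by exact_mod_cast (by simpa [ρ.char_one] using h2 : (n : ℂ) = 2)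
  let f : G →* GL (Fin 2) ℂ := ((LinearMap.toMatrixAlgEquiv' (R := ℂ) (n := Fin 2)
    ).toMonoidHom.comp ρ).toHomUnits
  have hinj : Function.Injective f := (injective_iff_map_eq_one f).mpr fun g hg =>
    hf g (by
      have : ρ g = ρ 1 := (LinearMap.toMatrixAlgEquiv' (R := ℂ) (n := Fin 2)).injective
        (congrArg Units.val (hg.trans (map_one f).symm))
      simp only [Representation.character, this])
  let π : G →* PGL(2, ℂ) := Matrix.ProjGenLinGroup.mk.comp f
  have hker : π.ker ≤ center G := fun z h => mem_center_iff.mpr fun g => hinj (by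
    rw [MonoidHom.mem_ker, MonoidHom.comp_apply, Matrix.ProjGenLinGroup.mk_eq_one] at h
    rw [map_mul, map_mul, mem_center_iff.mp h])
  have key : ∀ a : G ⧸ π.ker, (zpowers a).index ≤ 2 → Ab G 2 := by
    intro a ha
    refine ⟨(zpowers a).comap (QuotientGroup.mk' _), fun u ⟨i, hi⟩ v ⟨j, hj⟩ => ?_, by
      rwa [index_comap_of_surjective _ (QuotientGroup.mk'_surjective _)]⟩
    obtain ⟨a, rfl⟩ := QuotientGroup.mk'_surjective _ a
    simp only [← map_zpow, QuotientGroup.mk'_eq_mk'] at hi hj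
    obtain ⟨y, hy, rfl⟩ := hi
    obtain ⟨z, hz, rfl⟩ := hj
    have h1 : ∀ g, Commute g y := mem_center_iff.1 (hker hy)
    have h3 : ∀ g, Commute g z := mem_center_iff.1 (hker hz)
    exact (((Commute.refl a).zpow_zpow i j).mul_left (h1 _).symm).mul_right (h3 _)
  let φ := QuotientGroup.kerLift π
  have hφ : Function.Injective φ := QuotientGroup.kerLift_injective π
  have hU : ∀ (x : P1 ℂ) (g : G ⧸ π.ker), φ g ∈ unip x → g = 1 := fun x g hg => by
    obtain ⟨h, rfl⟩ := exists_smul_inf x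
    obtain ⟨b, hb⟩ := mem_unip_inf.mp ((conj_mem_unip h _ _).mpr hg)
    have h1 : transl b ^ Nat.card (G ⧸ π.ker) = 1 := by
      rw [← hb, ← inv_inv h, inv_inv h⁻¹, conj_pow, ← map_pow, pow_card_eq_one', map_one]
      group
    rw [transl_pow, transl_eq_one_iff, mul_eq_zero, Nat.cast_eq_zero] at h1
    rw [h1.resolve_left Nat.card_pos.ne', transl_zero, mul_assoc, inv_mul_eq_one, right_eq_mul] at hb
    exact (map_eq_one_iff φ hφ).mp hb
  have pair : ∀ x y : P1 ℂ, x ≠ y → (∀ g, KeepsPair (φ g) x y) → Ab G 2 := fun x y hxy h => by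
    obtain ⟨a, -, -, -, h3⟩ := cyclic_or_dihedral_of_pair φ hφ hxy h
    refine key a ?_
    rcases h3 with h3 | ⟨⟨e⟩⟩
    · rw [h3, index_top]; exact one_le_two
    · have h5 := (zpowers a).index_mul_card
      rw [Nat.card_congr e.toEquiv, DihedralGroup.nat_card, Nat.card_zpowers] at h5
      exact (Nat.eq_of_mul_eq_mul_right (orderOf_pos a) h5).le
  rcases tame_algClosed φ hφ hU with ⟨x, hx⟩ | ⟨x, y, hxy, h⟩ | h
  · left
    have hc : ∀ a b : G ⧸ π.ker, a * b = b * a := fun a b => mul_inv_eq_one.1 (hU x _ (by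
      simpa only [map_mul, map_inv] using comm_mem_unip (hx a) (hx b)))
    by_cases h0 : ∀ a : G ⧸ π.ker, a = 1
    · refine key 1 ?_
      have : zpowers (1 : G ⧸ π.ker) = ⊤ := eq_top_iff.2 fun a _ => by rw [h0 a]; exact one_mem _
      rw [this, index_top]
      exact one_le_two
    push Not at h0
    obtain ⟨a, ha⟩ := h0
    obtain ⟨y, hy, hyx⟩ : ∃ y, φ a • y = y ∧ y ≠ x := by
      by_contra k
      push Not at k
      exact ha (hU x a (Or.inr ⟨hx a, k⟩))
    refine pair x y hyx.symm fun g => Or.inl ⟨hx g, ?_⟩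
    by_contra k
    refine ha ((map_eq_one_iff φ hφ).1 (eq_one_of_fix_three _ hyx.symm (z := φ g • y) ?_ (Ne.symm k) (hx a) hy ?_))
    · intro e
      exact hyx (smul_left_cancel (φ g) (e.symm.trans (hx g).symm))
    · rw [← mul_smul, ← map_mul, hc, map_mul, mul_smul, hy]
  · exact Or.inl (pair x y hxy h)
  · exact Or.inr ⟨π.ker, inferInstance, hker, h⟩

/-- `deg2`, `card_conj_A4.2`, `card_conj_S4.2`, `card_conj_A5.2`. -/
theorem ab60 (h : FC G 2) : Ab G 60 := by
  rcases deg2 h with h1 | ⟨Z, _, h1, h2⟩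
  · exact h1.mono (by norm_num)
  refine ⟨Z, fun a ha b _ => (mem_center_iff.1 (h1 ha) b).symm, ?_⟩
  rw [index_eq_card]
  rcases h2 with ⟨⟨e⟩⟩ | ⟨⟨e⟩⟩ | ⟨⟨e⟩⟩ <;> rw [Nat.card_congr e.toEquiv]
  · rw [card_conj_A4.2]; norm_num
  · rw [card_conj_S4.2]; norm_num
  · rw [card_conj_A5.2]

/-- `deg2 (fc_of_inj ..)`.  First case: `Two.of_ab`.  Otherwise suppose `2 k ≤ p - 1`;
`lower_central` with `s = 42, 84, 222` (see `CTL.lower_two`) gives `|Z| s ≤ k |Q|`, and
`p ^ 2 - 1 ≤ 2 |Z| |Q|` (`Two.card_le`).  `A4`, `S4`: `p + 1 ≤ 48 / 7`, absurd.  `A5`: `p ≤ 15`,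
`|Z| = 1`, `p = 11`, `|G| = 60`, both orbits have size 60 (`Two.sum`, `ncard_orb_dvd`), all
stabilizers are trivial (`ncard_orb`, `orb_eq`), i.e. `Fpf ρ` (Perm/RegLin), so involutions are
central (`Fpf.involution_central`), which is false in `G ≃* A5`. -/
theorem Two.dim2 (h : Two ρ v w) (hp11 : 11 ≤ p) (hn : Nat.card V = p ^ 2) :
    p ≤ 2 * Nat.card (ConjClasses G) := by
  have h1 := h.card_le
  rw [hn] at h1
  rcases deg2 (fc_of_inj h.inj h.cop hn) with h2 | ⟨Z, _, h2, h3⟩
  · refine h.of_ab h2 ?_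
    rw [hn]
    obtain ⟨t, rfl⟩ : ∃ t, p = t + 1 := ⟨p - 1, by omega⟩
    rw [show (t + 1) ^ 2 - 1 = t * (t + 2) from Nat.sub_eq_of_eq_add (by ring), Nat.add_sub_cancel]
    nlinarith
  by_contra hk
  have h8 := card_eq_card_quotient_mul_card_subgroup Z
  have h0 : 0 < Nat.card Z := Nat.card_pos
  rcases h3 with ⟨⟨e⟩⟩ | ⟨⟨e⟩⟩ | ⟨⟨e⟩⟩
  · have h6 := lower_central Z h2 e (s := 42) (by decide +kernel)
    rw [Nat.card_congr e.toEquiv] at h8
    rw [card_conj_A4.2] at h6 h8
    nlinarith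
  · have h6 := lower_central Z h2 e (s := 84) (by decide +kernel)
    rw [Nat.card_congr e.toEquiv] at h8
    rw [card_conj_S4.2] at h6 h8
    nlinarith
  · have h6 := lower_central Z h2 e (s := 222) (by decide +kernel)
    rw [Nat.card_congr e.toEquiv] at h8
    rw [card_conj_A5.2] at h6 h8
    have h7 : p ≤ 15 := by nlinarith
    have h9 : Nat.card Z = 1 := by omega
    rw [h9, mul_one] at h8
    have h10 : p = 11 := by nlinarith
    have h11 := h.sum
    have a1 := Nat.le_of_dvd Nat.card_pos (ncard_orb_dvd ρ v)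
    have a2 := Nat.le_of_dvd Nat.card_pos (ncard_orb_dvd ρ w)
    rw [hn, show p ^ 2 = 121 by rw [h10]; rfl] at h11
    have fp : Fpf ρ := fun g u hu e' => by
      have a3 : (orb ρ u).ncard = 60 := by
        rcases h.all u hu with k | k <;> rw [orb_eq k] <;> omega
      have a4 := (stab ρ u).index_mul_card
      rw [← ncard_orb, a3, h8] at a4
      have a5 : stab ρ u = ⊥ := card_eq_one.1 (by omega)
      exact mem_bot.1 (a5 ▸ (mem_stab.2 e' : g ∈ stab ρ u))
    have : Nontrivial V := ⟨v, 0, h.hv⟩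
    obtain rfl : Z = ⊥ := card_eq_one.1 h9
    let e' := QuotientGroup.quotientBot.symm.trans e
    have a6 : ∃ t s : alternatingGroup (Fin 5), t ≠ 1 ∧ t ^ 2 = 1 ∧ s * t ≠ t * s := by decide +kernel
    obtain ⟨t, s, b1, b2, b3⟩ := a6
    have b4 := fp.involution_central (t := e'.symm t)
      (by rw [MulEquiv.orderOf_eq]; exact orderOf_eq_prime b2 b1) (e'.symm s)
    rw [← map_mul, ← map_mul] at b4
    exact b3 (e'.symm.injective b4)

end Cfsg.Agent.R3C
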