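import Mathlib
import Cfsg.Agent.R3C.Bas
import Cfsg.Agent.Char.Blichfeldt

/-! S4881: counting classes in cyclic subgroups; the four exceptions. -/

set_option autoImplicit false
set_option linter.unusedSectionVars false

namespace Cfsg.Agent.R3C

open Module Subgroup Cfsg Cfsg.Agent.Char Cfsg.Agent.Perm.SemiLin Cfsg.Agent.CTL Misc.Zsig

variable {p : ℕ} [hp : Fact p.Prime] {V : Type*} [AddCommGroup V] [Module (ZMod p) V] [Finite V]
  {G : Type*} [Group G] [Finite G] {ρ : G →* End (ZMod p) V} {v w : V}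

/-- Let `τ` afford the character.  `τ x ≠ 1` and `(τ x) ^ r = 1`, so `τ x` has an eigenvalue
`ζ ≠ 1` (else all `τ x - ω`, `ω ^ r = 1`, `ω ≠ 1`, are injective and their product with `τ x - 1`
vanishes), a primitive `r`-th root of unity.  `x ^ i ↦ ζ ^ i` is injective on `zpowers x`, and if
`x ^ i` is conjugate to `y` then `ζ ^ i` is an eigenvalue of `τ y`; there are at most `n` of these
(roots of the characteristic polynomial). -/
theorem conj_le {n r : ℕ} (h : FC G n) (hr : r.Prime) {x : G} (hx : orderOf x = r) (y : G) :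
    {u | u ∈ zpowers x ∧ IsConj u y}.ncard ≤ n := by
  classical
  obtain ⟨_, ⟨m, τ, rfl⟩, h1, hf⟩ := h
  obtain ⟨b, ε, he, hb, hc⟩ := exists_eigenvalues τ x
  obtain ⟨i, hi⟩ : ∃ i, ε i ≠ 1 := by
    by_contra! hh
    have : x = 1 := hf x (by
      have e1 := hc 1
      have e0 := hc 0
      rw [pow_one] at e1
      rw [pow_zero] at e0
      rw [e1, e0]; simp [hh])
    rw [this, orderOf_one] at hx
    exact hr.one_lt.ne hx
  have := Fact.mk hr
  have pr : IsPrimitiveRoot (ε i) r := by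
    have o : orderOf (ε i) = r := orderOf_eq_prime (hx ▸ he i) hi
    exact o ▸ IsPrimitiveRoot.orderOf _
  have pw : ∀ k : ℕ, τ (x ^ k) (b i) = ε i ^ k • b i := fun k => by
    induction k with
    | zero => simp
    | succ k ih => rw [pow_succ, map_mul, End.mul_apply, hb, map_smul, ih, smul_smul, pow_succ']
  have ex : ∀ u ∈ zpowers x, ∃ k < r, x ^ k = u := fun u hu => by
    simpa [hx] using mem_zpowers_iff_mem_range_orderOf.1 hu
  have hm : (τ y).charpoly.natDegree = n := by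
    rw [LinearMap.charpoly_natDegree]
    exact_mod_cast τ.char_one.symm.trans h1
  refine (Set.ncard_le_ncard_of_injOn (t := ((τ y).charpoly.roots.toFinset : Set ℂ))
    (fun u => b.repr (τ u (b i)) i) ?_ ?_).trans ?_
  · rintro u ⟨hu, c⟩
    obtain ⟨k, -, rfl⟩ := ex u hu
    obtain ⟨g, rfl⟩ := isConj_iff.1 c
    simp only [pw, map_smul, Basis.repr_self, Finsupp.smul_single, smul_eq_mul, mul_one,
      Finsupp.single_eq_same, Finset.mem_coe, Multiset.mem_toFinset]
    rw [Polynomial.mem_roots (LinearMap.charpoly_monic _).ne_zero,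
      ← End.hasEigenvalue_iff_isRoot_charpoly]
    refine End.hasEigenvalue_of_hasEigenvector (x := τ g (b i)) ⟨End.mem_eigenspace_iff.2 ?_, fun e => ?_⟩
    · rw [← End.mul_apply, ← map_mul, inv_mul_cancel_right, map_mul, End.mul_apply, pw, map_smul]
    · apply b.ne_zero i
      have := congrArg (τ g⁻¹) e
      rwa [← End.mul_apply, ← map_mul, inv_mul_cancel, map_one, End.one_apply, map_zero] at this
  · rintro u ⟨hu, -⟩ u' ⟨hu', -⟩ e
    obtain ⟨k, hk, rfl⟩ := ex u hu
    obtain ⟨l, hl, rfl⟩ := ex u' hu'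
    simp only [pw, map_smul, Basis.repr_self, Finsupp.smul_single, smul_eq_mul, mul_one,
      Finsupp.single_eq_same] at e
    rw [pr.pow_inj hk hl e]
  · rw [Set.ncard_coe_finset, ← hm]
    exact (Multiset.toFinset_card_le _).trans (Polynomial.card_roots' _)

/-- The `r - 1` non-identity elements of `zpowers x` lie in `cl x - 1` classes; `conj_le`. -/
theorem ev {n r : ℕ} (h : FC G n) (hr : r.Prime) {x : G} (hx : orderOf x = r) :
    r - 1 ≤ (cl x - 1) * n := by
  classical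
  have f1 := Set.toFinite (zpowers x : Set G)
  have f2 := Set.toFinite (ConjClasses.mk '' (zpowers x : Set G))
  have := Finset.card_le_mul_card_image_of_maps_to (f := ConjClasses.mk) (s := f1.toFinset.erase 1)
    (t := f2.toFinset.erase (ConjClasses.mk 1)) (fun a ha => by
      rw [Finset.mem_erase, Set.Finite.mem_toFinset] at ha ⊢
      exact ⟨fun e => ha.1 (isConj_one_right.1 (ConjClasses.mk_eq_mk_iff_isConj.1 e.symm)),
        a, ha.2, rfl⟩) n (fun c _ => by
      obtain ⟨y, rfl⟩ := ConjClasses.mk_surjective c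
      refine le_trans ?_ (conj_le h hr hx y)
      rw [← Set.ncard_coe_finset]
      refine Set.ncard_le_ncard fun u hu => ?_
      rw [Finset.mem_coe, Finset.mem_filter, Finset.mem_erase, Set.Finite.mem_toFinset] at hu
      exact ⟨hu.1.2, ConjClasses.mk_eq_mk_iff_isConj.1 hu.2⟩)
  rw [Finset.card_erase_of_mem (f1.mem_toFinset.2 (one_mem _)),
    Finset.card_erase_of_mem (f2.mem_toFinset.2 ⟨1, one_mem _, rfl⟩), ← Set.ncard_eq_toFinset_card _ f1,
    ← Set.ncard_eq_toFinset_card _ f2, ← Nat.card_coe_set_eq, mul_comm] at this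
  rwa [← hx, ← Nat.card_zpowers]

theorem cl_le (x : G) : cl x ≤ Nat.card (ConjClasses G) := by
  exact Set.ncard_le_card _

/-- With `N ≡ 1 mod orderOf x`, `N ≡ 0 mod orderOf y` and `N'` the other way round, the map
`class z ↦ (class (z ^ N), class (z ^ N'))` sends the classes meeting `zpowers (x * y)` onto the
pairs (`a * b ∈ zpowers (x * y)` for `a ∈ zpowers x`, `b ∈ zpowers y`). -/
theorem cl_mul {x y : G} (hc : Commute x y) (hxy : (orderOf x).Coprime (orderOf y)) :
    cl x * cl y ≤ cl (x * y) := by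
  let pw : ℕ → ConjClasses G → ConjClasses G := fun N => Quotient.map (· ^ N) fun _ _ h => IsConj.pow N h
  obtain ⟨N, N1, N0⟩ := Nat.chineseRemainder hxy 1 0
  obtain ⟨N', N0', N1'⟩ := Nat.chineseRemainder hxy 0 1
  have pz : ∀ {z a : G} {k l : ℕ}, a ∈ zpowers z → k ≡ l [MOD orderOf z] → a ^ k = a ^ l :=
    fun ha h => pow_eq_pow_iff_modEq.2 (h.of_dvd (orderOf_dvd_of_mem_zpowers ha))
  have e : ∀ a ∈ zpowers x, ∀ b ∈ zpowers y, (a * b) ^ N = a ∧ (a * b) ^ N' = b := fun a ha b hb => by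
    have c : Commute a b := by
      obtain ⟨i, rfl⟩ := ha
      obtain ⟨j, rfl⟩ := hb
      exact hc.zpow_zpow i j
    rw [c.mul_pow, c.mul_pow, pz ha N1, pz hb N0, pz ha N0', pz hb N1']
    simp
  have e0 := e x (mem_zpowers x) y (mem_zpowers y)
  have lx : zpowers x ≤ zpowers (x * y) := zpowers_le.2 (by
    have := pow_mem (mem_zpowers (x * y)) N
    rwa [e0.1] at this)
  have ly : zpowers y ≤ zpowers (x * y) := zpowers_le.2 (by
    have := pow_mem (mem_zpowers (x * y)) N'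
    rwa [e0.2] at this)
  rw [cl, cl, ← Set.ncard_prod]
  refine le_trans (Set.ncard_le_ncard ?_) (Set.ncard_image_le (f := fun c => (pw N c, pw N' c)))
  rintro ⟨_, _⟩ ⟨⟨a, ha, rfl⟩, b, hb, rfl⟩
  refine ⟨_, ⟨a * b, mul_mem (lx ha) (ly hb), rfl⟩, Prod.ext ?_ ?_⟩
  · exact congrArg ConjClasses.mk (e a ha b hb).1
  · exact congrArg ConjClasses.mk (e a ha b hb).2

theorem ev_el {q : ℕ} (hq : q.Prime) (hd : q ∣ Nat.card G) : ∃ x : G, orderOf x = q :=
  have := Fact.mk hq
  exists_prime_orderOf_dvd_card' q hd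

theorem ev_ord (g x : G) : orderOf (g * x * g⁻¹) = orderOf x :=
  (SemiconjBy.orderOf_eq g (by simp [SemiconjBy])).symm

theorem ev_step {S : Set (ConjClasses G)} {M q : ℕ} (h : ∀ u, ConjClasses.mk u ∈ S → orderOf u ∣ M)
    (hq : q.Prime) (hd : q ∣ Nat.card G) (hM : ¬ q ∣ M) : ∃ S' : Set (ConjClasses G),
      S'.ncard = S.ncard + 1 ∧ ∀ u, ConjClasses.mk u ∈ S' → orderOf u ∣ M * q := by
  obtain ⟨x, hx⟩ := ev_el hq hd
  refine ⟨insert (ConjClasses.mk x) S, Set.ncard_insert_of_notMem fun e => hM (hx ▸ h x e),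
    fun u hu => hu.elim (fun e => ?_) fun e => (h u e).mul_right q⟩
  obtain ⟨g, rfl⟩ := isConj_iff.1 (ConjClasses.mk_eq_mk_iff_isConj.1 e.symm)
  rw [ev_ord, hx]; exact dvd_mul_left _ _

/-- `13 ^ 4 - 1 = 2 ^ 4 * 3 * 5 * 7 * 17`: three classes meet a subgroup of order 17 (`ev`), and
there are elements of orders 2, 3, 5, 7. -/
theorem exc13 (h : FC G 8) (hd : 13 ^ 4 - 1 ∣ Nat.card G) : 7 ≤ Nat.card (ConjClasses G) := by
  obtain ⟨x, hx⟩ := ev_el (q := 17) (by norm_num) (Dvd.dvd.trans (by norm_num) hd)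
  have h3 := ev h (by norm_num) hx
  obtain ⟨S₁, c1, h1⟩ := ev_step (q := 2) (S := ConjClasses.mk '' (zpowers x : Set G)) (M := 17)
    (fun u ⟨a, ha, e⟩ => by
      obtain ⟨g, rfl⟩ := isConj_iff.1 (ConjClasses.mk_eq_mk_iff_isConj.1 e)
      rw [ev_ord, ← hx]; exact orderOf_dvd_of_mem_zpowers ha)
    (by norm_num) (Dvd.dvd.trans (by norm_num) hd) (by norm_num)
  obtain ⟨S₂, c2, h2⟩ := ev_step (q := 3) h1 (by norm_num) (Dvd.dvd.trans (by norm_num) hd) (by norm_num)
  obtain ⟨S₃, c3, h3⟩ := ev_step (q := 5) h2 (by norm_num) (Dvd.dvd.trans (by norm_num) hd) (by norm_num)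
  obtain ⟨S₄, c4, h4⟩ := ev_step (q := 7) h3 (by norm_num) (Dvd.dvd.trans (by norm_num) hd) (by norm_num)
  have := Set.ncard_le_card S₄
  change _ = cl x + 1 at c1
  omega

/-- `13 * 17 * 23 ∣ 47 ^ 4 - 1`.  The abelian subgroup `A` of `exists_comm_not_dvd_index` contains
elements of orders 13, 17, 23; `ev` gives `cl ≥ 3, 3, 4`; `cl_mul` twice, `cl_le`. -/
theorem exc47 (h : FC G 8) (hd : 47 ^ 4 - 1 ∣ Nat.card G) : 24 ≤ Nat.card (ConjClasses G) := by
  obtain ⟨A, hA, hi⟩ : ∃ A : Subgroup G, (∀ x ∈ A, ∀ y ∈ A, x * y = y * x) ∧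
      ∀ q : ℕ, q.Prime → 8 + 1 < q → ¬ q ∣ A.index := by
    obtain ⟨χ, h1, h2, h3⟩ := h
    exact exists_comm_not_dvd_index 8 G χ h1 h3 (charDegree_eq_of_one_eq h2)
  have el : ∀ q : ℕ, q.Prime → 8 + 1 < q → q ∣ 47 ^ 4 - 1 → ∃ x ∈ A, orderOf x = q := fun q hq h9 d => by
    have := d.trans hd
    rw [← A.card_mul_index] at this
    obtain ⟨x, hx⟩ := ev_el hq ((hq.dvd_mul.1 this).resolve_right (hi q hq h9))
    exact ⟨x, x.2, (orderOf_coe x).trans hx⟩
  obtain ⟨x, xA, hx⟩ := el 13 (by norm_num) (by norm_num) (by norm_num)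
  obtain ⟨y, yA, hy⟩ := el 17 (by norm_num) (by norm_num) (by norm_num)
  obtain ⟨z, zA, hz⟩ := el 23 (by norm_num) (by norm_num) (by norm_num)
  have e1 := ev h (by norm_num) hx
  have e2 := ev h (by norm_num) hy
  have e3 := ev h (by norm_num) hz
  have c : Commute x y := hA x xA y yA
  have co : (orderOf x).Coprime (orderOf y) := by rw [hx, hy]; norm_num
  have m1 := cl_mul c co
  have m2 := cl_mul (x := x * y) (y := z) (hA _ (mul_mem xA yA) z zA)
    (by rw [c.orderOf_mul_eq_mul_orderOf_of_coprime co, hx, hy, hz]; norm_num)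
  have := Nat.mul_le_mul ((Nat.mul_le_mul (show 3 ≤ cl x by omega) (show 3 ≤ cl y by omega)).trans m1)
    (show 4 ≤ cl z by omega)
  have := cl_le (x * y * z)
  omega

/-- `307 ∣ 17 ^ 6 - 1`; `ev`, `cl_le`. -/
theorem exc17 (h : FC G 12) (hd : 17 ^ 6 - 1 ∣ Nat.card G) : 9 ≤ Nat.card (ConjClasses G) := by
  obtain ⟨x, hx⟩ := ev_el (q := 307) (by norm_num) (Dvd.dvd.trans (by norm_num) hd)
  have := ev h (by norm_num) hx
  have := cl_le x
  omega

/-- `331 ∣ 31 ^ 6 - 1`; `ev`, `cl_le`. -/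
theorem exc31 (h : FC G 12) (hd : 31 ^ 6 - 1 ∣ Nat.card G) : 16 ≤ Nat.card (ConjClasses G) := by
  obtain ⟨x, hx⟩ := ev_el (q := 331) (by norm_num) (Dvd.dvd.trans (by norm_num) hd)
  have := ev h (by norm_num) hx
  have := cl_le x
  omega

end Cfsg.Agent.R3C
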