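import Mathlib
import Cfsg.Agent.R3C.CC
import Cfsg.Agent.R3C.Deg2
import Cfsg.Agent.R3C.Ev

/-! S4881: a homogeneous normal abelian subgroup. -/

set_option autoImplicit false
set_option linter.unusedSectionVars false

namespace Cfsg.Agent.R3C

open Module Subgroup Cfsg Cfsg.Agent.Char Cfsg.Agent.Perm.SemiLin Cfsg.Agent.CTL Misc.Zsig

variable {p : ℕ} [hp : Fact p.Prime] {V : Type*} [AddCommGroup V] [Module (ZMod p) V] [Finite V]
  {G : Type*} [Group G] [Finite G] {ρ : G →* End (ZMod p) V} {v w : V}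

theorem zoi_aux {A : Subgroup G} {W₁ W₂ W₃ : Submodule (ZMod p) V} (h1 : MinInv ρ A W₁)
    (h12 : IsCompl W₁ W₂) (h13 : IsCompl W₁ W₃) (h23 : Disjoint W₂ W₃)
    {e : End (ZMod p) V} (he : ∀ a ∈ A, e * ρ a = ρ a * e)
    (e2 : ∀ u ∈ W₂, e u ∈ W₂) (e3 : ∀ u ∈ W₃, e u ∈ W₃) {u : V} (hu : u ∈ W₁) (u0 : u ≠ 0) (eu : e u = 0) :
    e = 0 := by
  have k := (h1.min (LinearMap.ker e ⊓ W₁) inf_le_right fun a ha x hx =>
    ⟨by rw [SetLike.mem_coe, LinearMap.mem_ker, ← End.mul_apply, he a ha, End.mul_apply, LinearMap.mem_ker.1 hx.1,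
      map_zero], h1.inv a ha x hx.2⟩).resolve_left fun c => u0 ((Submodule.mem_bot _).1 (c.le ⟨eu, hu⟩))
  have r : ∀ W, IsCompl W₁ W → (∀ u ∈ W, e u ∈ W) → ∀ x, e x ∈ W := fun W hW hw x => by
    obtain ⟨a, ha, b, hb, rfl⟩ := Submodule.mem_sup.1 (hW.sup_eq_top.ge (Submodule.mem_top (x := x)))
    rw [map_add, LinearMap.mem_ker.1 (k.ge ha).1, zero_add]
    exact hw b hb
  exact LinearMap.ext fun x => Submodule.disjoint_def.1 h23 _ (r _ h12 e2 x) (r _ h13 e3 x)

/-- Let `e` commute with `ρ A` and preserve the three subspaces.  If `e u = 0`, `u = u₁ + u₂ ≠ 0`,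
then `e u₁ = 0 = e u₂`; say `u i ≠ 0`.  Then `ker e ⊓ W i` is `A`-invariant and non-zero, so `e`
kills `W i`, and the range of `e` lies in `W j ⊓ W₃ = ⊥` (`V = W i ⊕ W j = W i ⊕ W₃`). -/
theorem zero_or_inj {A : Subgroup G} {W₁ W₂ W₃ : Submodule (ZMod p) V} (h1 : MinInv ρ A W₁)
    (h2 : MinInv ρ A W₂) (h12 : IsCompl W₁ W₂) (h13 : IsCompl W₁ W₃) (h23 : IsCompl W₂ W₃)
    {e : End (ZMod p) V} (he : ∀ a ∈ A, e * ρ a = ρ a * e) (e1 : ∀ u ∈ W₁, e u ∈ W₁)
    (e2 : ∀ u ∈ W₂, e u ∈ W₂) (e3 : ∀ u ∈ W₃, e u ∈ W₃) : e = 0 ∨ Function.Injective e := by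
  refine or_iff_not_imp_left.2 fun c => (injective_iff_map_eq_zero e).2 fun u hu => ?_
  obtain ⟨a, ha, b, hb, rfl⟩ := Submodule.mem_sup.1 (h12.sup_eq_top.ge (Submodule.mem_top (x := u)))
  rw [map_add] at hu
  have ea : e a = 0 := Submodule.disjoint_def.1 h12.disjoint _ (e1 a ha) (by
    rw [eq_neg_of_add_eq_zero_left hu]; exact neg_mem (e2 b hb))
  rw [ea, zero_add] at hu
  rw [by_contra fun k : ¬ a = 0 => c (zoi_aux h1 h12 h13 h23.disjoint he e2 e3 ha k ea),
    by_contra fun k : ¬ b = 0 => c (zoi_aux h2 h12.symm h23 h13.disjoint he e1 e3 hb k hu), add_zero]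

/-- `A` acts faithfully on `W₁` (`zero_or_inj` for `ρ a - 1`) and irreducibly, so it is cyclic
(`isCyclic_of_irr` for the action of `A` on `W₁`, `Representation.subrepresentation`), generated by
`z` of order `r`.  `zero_or_inj` for `f(ρ z)`, `cc` and `ab60` give `Ab (centralizer {z}) 60`.  The
index of the centralizer is the size of the class of `z` (`ConjAct.stabilizer_eq_centralizer`,
`MulAction.index_stabilizer`), which lies in `A = zpowers z`, so it is at most `2 * m`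
(`conj_le`, `fc_of_inj`); `Ab.of_sub`. -/
theorem ln_hom (hρ : Function.Injective ρ) (hG : ¬ p ∣ Nat.card G) {m r : ℕ}
    (hn : Nat.card V = p ^ (2 * m)) (hr : IsPPD p m r) {A : Subgroup G} [A.Normal] (hA : A ≠ ⊥)
    (hc : ∀ a ∈ A, ∀ b ∈ A, a * b = b * a) (hexp : ∀ a ∈ A, a ^ r = 1)
    {W₁ W₂ W₃ : Submodule (ZMod p) V} (h1 : MinInv ρ A W₁) (h2 : MinInv ρ A W₂)
    (h3 : MinInv ρ A W₃) (h12 : IsCompl W₁ W₂) (h13 : IsCompl W₁ W₃) (h23 : IsCompl W₂ W₃) :
    Ab G (60 * (2 * m)) := by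
  have key : ∀ a ∈ A, ∀ f : Polynomial (ZMod p), Polynomial.aeval (ρ a) f = 0 ∨
      Function.Injective (Polynomial.aeval (ρ a) f : End (ZMod p) V) := fun a ha f =>
    zero_or_inj h1 h2 h12 h13 h23 (fun b hb => (Algebra.commute_of_mem_adjoin_singleton_of_commute
      (Polynomial.aeval_mem_adjoin_singleton _ _) (show Commute (ρ b) (ρ a) from Commute.map (hc b hb a ha) ρ)).eq.symm)
      (fun u hu => Polynomial.aeval_apply_smul_mem_of_le_comap hu f _ (h1.inv a ha))
      (fun u hu => Polynomial.aeval_apply_smul_mem_of_le_comap hu f _ (h2.inv a ha))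
      fun u hu => Polynomial.aeval_apply_smul_mem_of_le_comap hu f _ (h3.inv a ha)
  let σ : A →* End (ZMod p) W₁ := Representation.subrepresentation (ρ.comp A.subtype) W₁ fun a => h1.inv a a.2
  have nt : Nontrivial W₁ := Submodule.nontrivial_iff_ne_bot.2 h1.ne
  have hσ : Function.Injective σ := (injective_iff_map_eq_one σ).2 fun a ha => by
    obtain ⟨u, hu⟩ := exists_ne (0 : W₁)
    have e : ρ a u = u := congrArg Subtype.val (DFunLike.congr_fun ha u)
    have := key a a.2 (Polynomial.X - 1)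
    rw [map_sub, Polynomial.aeval_X, map_one] at this
    exact Subtype.ext (hρ (by
      rw [OneMemClass.coe_one, map_one]
      exact sub_eq_zero.1 (this.resolve_right fun c => hu (Subtype.ext ((injective_iff_map_eq_zero _).1 c u
        (by rw [LinearMap.sub_apply, e, End.one_apply, sub_self]))))))
  have cy : IsCyclic (⊤ : Subgroup A) := isCyclic_of_irr hσ (fun a _ b _ => Subtype.ext (hc a a.2 b b.2)) fun W hW =>
    (h1.min (W.map W₁.subtype) (Submodule.map_subtype_le _ _) (by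
      rintro a ha _ ⟨u, hu, rfl⟩
      exact ⟨_, hW ⟨a, ha⟩ trivial u hu, rfl⟩)).imp
      (fun e => Submodule.map_injective_of_injective W₁.injective_subtype (by rw [e, Submodule.map_bot])) fun e =>
        Submodule.map_injective_of_injective W₁.injective_subtype (by rw [e, Submodule.map_subtype_top])
  obtain ⟨z, hz⟩ := A.isCyclic_iff_exists_zpowers_eq_top.1 (isCyclic_of_surjective _ topEquiv.surjective)
  have zA : z ∈ A := hz ▸ mem_zpowers z
  have := Fact.mk hr.1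
  have ho : orderOf z = r := orderOf_eq_prime (hexp z zA) fun e => hA (by rw [← hz, e, zpowers_one_eq_bot])
  refine Ab.of_sub _ (ab60 (cc hρ hG hn le_rfl hr ho (key z zA))) (le_trans ?_ (conj_le (fc_of_inj hρ hG hn) hr.1 ho z))
  have e : (centralizer ({z} : Set G)).index = (MulAction.stabilizer (ConjAct G) z).index := by
    rw [ConjAct.stabilizer_eq_centralizer]
    rfl
  rw [e, MulAction.index_stabilizer]
  refine Set.ncard_le_ncard (fun u hu => ⟨?_, ConjAct.mem_orbit_conjAct.1 hu⟩) (Set.toFinite _)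
  obtain ⟨g, rfl⟩ := hu
  exact hz.ge (‹A.Normal›.conj_mem z zA _)

end Cfsg.Agent.R3C
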