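import Mathlib
import Cfsg.Agent.R3C.LNb
import Cfsg.Agent.R3C.LNc

/-! S4881: a normal subgroup for a primitive prime divisor of the half dimension. -/

set_option autoImplicit false
set_option linter.unusedSectionVars false

namespace Cfsg.Agent.R3C

open Module Subgroup Cfsg Cfsg.Agent.Char Cfsg.Agent.Perm.SemiLin Cfsg.Agent.CTL Misc.Zsig

variable {p : ℕ} [hp : Fact p.Prime] {V : Type*} [AddCommGroup V] [Module (ZMod p) V] [Finite V]
  {G : Type*} [Group G] [Finite G] {ρ : G →* End (ZMod p) V} {v w : V}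

/-- The fixed space of `A` is `G`-invariant (`A` is normal) and not `⊤` (`ρ` is injective), so it
is `⊥`, and some `a ∈ A` acts non-trivially on `W`.  `card_modEq_fix` gives
`p ^ i ≡ p ^ j [MOD r]` with `j < i = finrank W`, so `r ∣ p ^ (i - j) - 1` (`r ≠ p`: `ppd_ne`) and
`m ≤ i - j` by `hr.2.2`. -/
theorem le_finrank (hρ : Function.Injective ρ) (hirr : Irr ρ) {m r : ℕ} (hm : 0 < m)
    (hr : IsPPD p m r) {A : Subgroup G} [A.Normal] (hA : A ≠ ⊥) (hexp : ∀ a ∈ A, a ^ r = 1)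
    {W : Submodule (ZMod p) V} (hW : ∀ a ∈ A, ∀ u ∈ W, ρ a u ∈ W) (h0 : W ≠ ⊥) :
    m ≤ finrank (ZMod p) W := by
  have key : ∃ a ∈ A, ∃ u ∈ W, ρ a u ≠ u := by
    by_contra! c
    let F : Submodule (ZMod p) V := ⨅ a : A, LinearMap.ker (ρ a - 1)
    have mF : ∀ u, u ∈ F ↔ ∀ a ∈ A, ρ a u = u := fun u => by
      simp [F, Submodule.mem_iInf, sub_eq_zero]
    rcases hirr F (fun g u hu => (mF _).2 fun a ha => by
      have := (mF u).1 hu _ (Normal.conj_mem' inferInstance a ha g)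
      conv_rhs => rw [← this]
      rw [← End.mul_apply, ← End.mul_apply, ← map_mul, ← map_mul]
      congr 2
      group) with e | e
    · exact h0 (eq_bot_iff.2 fun u hu => e.le ((mF u).2 fun a ha => c a ha u hu))
    · exact hA (eq_bot_iff.2 fun a ha => hρ (LinearMap.ext fun u => by
        rw [map_one]; exact (mF u).1 (e.ge trivial) a ha))
  obtain ⟨a, ha, u, hu, n⟩ := key
  have h1 := card_modEq_fix hr.1 (x := ρ a) (by rw [← map_pow, hexp a ha, map_one]) W (hW a ha)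
  have lt : finrank (ZMod p) ↥(W ⊓ LinearMap.ker (ρ a - 1)) < finrank (ZMod p) W :=
    Submodule.finrank_lt_finrank_of_lt (lt_of_le_of_ne inf_le_left fun e =>
      n (by simpa [sub_eq_zero] using (e.ge hu).2))
  rw [card_submodule, card_submodule] at h1
  generalize finrank (ZMod p) ↥(W ⊓ LinearMap.ker (ρ a - 1)) = j at *
  generalize finrank (ZMod p) W = i at *
  obtain ⟨k, rfl⟩ := Nat.exists_eq_add_of_lt lt
  have h2 : r ∣ p ^ j * (p ^ (k + 1) - 1) := by
    rw [Nat.mul_sub, mul_one, ← pow_add, ← add_assoc]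
    exact (Nat.modEq_iff_dvd' (Nat.pow_le_pow_right hp.out.pos (by omega))).1 h1.symm
  have h3 := ((Nat.Prime.dvd_mul hr.1).1 h2).resolve_left fun c =>
    ppd_ne hm hr ((Nat.prime_dvd_prime_iff_eq hr.1 hp.out).1 (hr.1.dvd_of_dvd_pow c))
  by_contra c
  exact hr.2.2 (k + 1) (by omega) (by omega) h3

theorem MinInv.map {A : Subgroup G} [A.Normal] {W : Submodule (ZMod p) V} (h : MinInv ρ A W)
    (g : G) : MinInv ρ A (W.map (ρ g)) := by
  have i1 : ∀ (g : G) u, ρ g⁻¹ (ρ g u) = u := fun g u => by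
    rw [← End.mul_apply, ← map_mul, inv_mul_cancel, map_one, End.one_apply]
  have i2 : ∀ u, ρ g (ρ g⁻¹ u) = u := fun u => by
    rw [← End.mul_apply, ← map_mul, mul_inv_cancel, map_one, End.one_apply]
  have iv : ∀ (g : G) (U : Submodule (ZMod p) V), (∀ a ∈ A, ∀ u ∈ U, ρ a u ∈ U) →
      ∀ a ∈ A, ∀ u ∈ U.map (ρ g), ρ a u ∈ U.map (ρ g) := by
    rintro g U hU a ha _ ⟨u, hu, rfl⟩
    refine ⟨_, hU _ (Normal.conj_mem' inferInstance a ha g) u hu, ?_⟩
    rw [← End.mul_apply, ← End.mul_apply, ← map_mul, ← map_mul]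
    congr 2
    group
  refine ⟨iv g W h.inv, fun e => h.ne (eq_bot_iff.2 fun u hu => ?_), fun U hU hi => ?_⟩
  · rw [Submodule.mem_bot, ← i1 g u, (Submodule.mem_bot _).1 (e.le ⟨u, hu, rfl⟩), map_zero]
  · have e0 : (U.map (ρ g⁻¹)).map (ρ g) = U := by
      rw [← Submodule.map_comp, show ρ g ∘ₗ ρ g⁻¹ = LinearMap.id from LinearMap.ext i2,
        Submodule.map_id]
    rcases h.min (U.map (ρ g⁻¹)) (by
      rintro _ ⟨u, hu, rfl⟩
      obtain ⟨x, hx, rfl⟩ := hU hu
      rwa [i1]) (iv g⁻¹ U hi) with e | e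
    · exact Or.inl (by rw [← e0, e, Submodule.map_bot])
    · exact Or.inr (by rw [← e0, e])

/-- `A = {x ∈ pCore r G ⊓ centralizer (pCore r G) | x ^ r = 1}` is normal, abelian, non-trivial
(`prime_dvd_card_center`).  Let `W` be a minimal non-zero `A`-invariant subspace.  If `W = ⊤`:
`semilinear_of_normal`, `semi_abelian`, index at most `2 * m`.  Otherwise `W` is not `G`-invariant,
so `W₂ = W.map (ρ g) ≠ W` for some `g`.  Two different minimal subspaces meet in `⊥` and have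
dimension at least `m` (`le_finrank`), so both have dimension `m` and they are complementary
(`Submodule.finrank_sup_add_finrank_inf_eq`).  If some `W.map (ρ h)` differs from `W` and `W₂`:
`ln_hom`; otherwise `ln_imp` (`ρ h` is injective, so the images of `W` and `W₂` differ). -/
theorem ln (hρ : Function.Injective ρ) (hG : ¬ p ∣ Nat.card G) (hirr : Irr ρ) {m r : ℕ}
    (hn : Nat.card V = p ^ (2 * m)) (hm : 3 ≤ m) (hr : IsPPD p m r) (hO : pCore r G ≠ ⊥) :
    Ab G (40 * m ^ 2) := by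
  have := Fact.mk hr.1
  let Z : Subgroup G := pCore r G ⊓ centralizer (pCore r G)
  have cZ : ∀ a ∈ Z, ∀ b ∈ Z, a * b = b * a := fun a ha b hb => hb.2 a ha.1
  let A : Subgroup G :=
    { carrier := {x | x ∈ Z ∧ x ^ r = 1}
      one_mem' := ⟨one_mem _, one_pow _⟩
      mul_mem' := fun {a b} ha hb => ⟨mul_mem ha.1 hb.1, by
        rw [Commute.mul_pow (cZ a ha.1 b hb.1), ha.2, hb.2, mul_one]⟩
      inv_mem' := fun {a} ha => ⟨inv_mem ha.1, by rw [inv_pow, ha.2, inv_one]⟩ }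
  have nZ : Z.Normal := inferInstance
  have nA : A.Normal := ⟨fun a ha g => ⟨nZ.conj_mem a ha.1 g, by rw [conj_pow, ha.2]; simp⟩⟩
  have hc : ∀ a ∈ A, ∀ b ∈ A, a * b = b * a := fun a ha b hb => cZ a ha.1 b hb.1
  have hexp : ∀ a ∈ A, a ^ r = 1 := fun a ha => ha.2
  have hA : A ≠ ⊥ := by
    obtain ⟨x, hx⟩ := exists_prime_orderOf_dvd_card' r
      (prime_dvd_card_center hr.1 (PLocal.Amb.isPGroup_pCore' r G) hO)
    intro e
    have h1 : x.1 ∈ A := ⟨x.2, by
      have := pow_orderOf_eq_one x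
      rw [hx] at this
      exact congrArg Subtype.val this⟩
    rw [show x = 1 from Subtype.ext (e.le h1), orderOf_one] at hx
    exact hr.1.one_lt.ne hx
  have fV : finrank (ZMod p) V = 2 * m := by
    rw [Module.natCard_eq_pow_finrank (K := ZMod p), Nat.card_zmod] at hn
    exact Nat.pow_right_injective hp.out.two_le hn
  have nt : Nontrivial V := Module.nontrivial_of_finrank_pos (R := ZMod p) (by omega)
  obtain ⟨W, ⟨hW, hW0⟩, mW⟩ := (wellFounded_lt (α := Submodule (ZMod p) V)).has_min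
    {W | (∀ a ∈ A, ∀ u ∈ W, ρ a u ∈ W) ∧ W ≠ ⊥} ⟨⊤, fun _ _ _ _ => trivial, top_ne_bot⟩
  have h1 : MinInv ρ A W := ⟨hW, hW0, fun U hU hi => or_iff_not_imp_left.2 fun h0 =>
    hU.eq_of_not_lt (mW U ⟨hi, h0⟩)⟩
  by_cases ht : W = ⊤
  · subst ht
    obtain ⟨B, b1, b2⟩ := semi_abelian hρ (n := 2 * m) (by omega) (semilinear_of_normal ρ A
      (fun a ha b hb => by rw [← map_mul, hc a ha b hb, map_mul]) (fun U hU => h1.min U le_top hU) hn)
    exact ⟨B, b1, b2.trans (by nlinarith)⟩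
  have cp : ∀ {U U' : Submodule (ZMod p) V}, MinInv ρ A U → MinInv ρ A U' → U ≠ U' →
      IsCompl U U' ∧ Nat.card U = p ^ m := fun {U U'} a b n => by
    have d : U ⊓ U' = ⊥ := by
      have iv : ∀ x ∈ A, ∀ u ∈ U ⊓ U', ρ x u ∈ U ⊓ U' := fun x hx u hu =>
        ⟨a.inv x hx u hu.1, b.inv x hx u hu.2⟩
      by_contra c
      exact n (((a.min _ inf_le_left iv).resolve_left c).symm.trans
        ((b.min _ inf_le_right iv).resolve_left c))
    have e1 := le_finrank hρ hirr (by omega) hr hA hexp a.inv a.ne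
    have e2 := le_finrank hρ hirr (by omega) hr hA hexp b.inv b.ne
    have e3 := Submodule.finrank_sup_add_finrank_inf_eq U U'
    have e4 := Submodule.finrank_le (U ⊔ U')
    rw [d, finrank_bot] at e3
    refine ⟨⟨disjoint_iff.2 d, codisjoint_iff.2 (Submodule.eq_top_of_finrank_eq (by omega))⟩, ?_⟩
    rw [Module.natCard_eq_pow_finrank (K := ZMod p), Nat.card_zmod]
    congr 1
    omega
  obtain ⟨g, hg⟩ : ∃ g, W ≠ W.map (ρ g) := by
    by_contra! c
    rcases hirr W (fun g u hu => (c g).ge ⟨u, hu, rfl⟩) with e | e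
    exacts [hW0 e, ht e]
  have h2 := h1.map g
  by_cases h3 : ∃ k, W ≠ W.map (ρ k) ∧ W.map (ρ g) ≠ W.map (ρ k)
  · obtain ⟨k, k1, k2⟩ := h3
    obtain ⟨B, b1, b2⟩ := ln_hom hρ hG hn hr hA hc hexp h1 h2 (h1.map k) (cp h1 h2 hg).1
      (cp h1 (h1.map k) k1).1 (cp h2 (h1.map k) k2).1
    exact ⟨B, b1, b2.trans (by nlinarith)⟩
  have h4 : ∀ k, W.map (ρ k) = W ∨ W.map (ρ k) = W.map (ρ g) := fun k => by
    by_contra! c
    exact h3 ⟨k, c.1.symm, c.2.symm⟩
  obtain ⟨B, b1, b2⟩ := ln_imp hρ (by omega) hc h1 h2 (cp h1 h2 hg).2 (cp h2 h1 hg.symm).2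
    (cp h1 h2 hg).1 fun k => by
      have ik : Function.Injective (ρ k) := Function.LeftInverse.injective (g := ρ k⁻¹) fun u => by
        rw [← End.mul_apply, ← map_mul, inv_mul_cancel, map_one, End.one_apply]
      have n : W.map (ρ k) ≠ (W.map (ρ g)).map (ρ k) := fun e =>
        hg (Submodule.map_injective_of_injective ik e)
      have e : (W.map (ρ g)).map (ρ k) = W.map (ρ (k * g)) := by
        rw [map_mul, End.mul_eq_comp, Submodule.map_comp]
      rcases h4 k with a | a <;> rcases h4 (k * g) with b | b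
      · exact absurd (a.trans (e.trans b).symm) n
      · exact Or.inl ⟨a, e.trans b⟩
      · exact Or.inr ⟨a, e.trans b⟩
      · exact absurd (a.trans (e.trans b).symm) n
  exact ⟨B, b1, b2.trans (by nlinarith)⟩

end Cfsg.Agent.R3C
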