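import Mathlib
import Cfsg.Agent.R3C.Defs
import Cfsg.Agent.CTL.Num

/-! S4881: primitive prime divisors. -/

set_option autoImplicit false
set_option linter.unusedSectionVars false

namespace Cfsg.Agent.R3C

open Module Subgroup Cfsg Cfsg.Agent.Char Cfsg.Agent.Perm.SemiLin Cfsg.Agent.CTL Misc.Zsig

variable {p : ℕ} [hp : Fact p.Prime] {V : Type*} [AddCommGroup V] [Module (ZMod p) V] [Finite V]
  {G : Type*} [Group G] [Finite G] {ρ : G →* End (ZMod p) V} {v w : V}

/-- the bound -/
def numK (m : ℕ) : ℕ := m * (m + 1) ^ 2 * (2 * m + 1) * (3 * m + 1) * (4 * m + 1)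

/-- the bound for `q` -/
def numB (n : ℕ) : ℕ := if n = 6 then 1350 else if n = 4 then 448 else if n = 3 then 211 else 100

theorem num_mono {a b : ℕ} (h : a ≤ b) : numK a ≤ numK b := by
  unfold numK; gcongr

theorem num_t {t : ℕ} (ht : 19 ≤ t) : numK (2 * t ^ 2) ≤ 10 ^ t := by
  induction t, ht using Nat.le_induction with
  | base => norm_num [numK]
  | succ n hn ih =>
    have h1 : numK (2 * (n + 1) ^ 2) ≤ 10 * numK (2 * n ^ 2) := by
      obtain ⟨k, rfl⟩ := Nat.exists_eq_add_of_le hn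
      unfold numK
      ring_nf; omega
    rw [pow_succ 10]
    omega

theorem num_chk1 : ∀ n < 649, 30 < n → numK n ≤ 10 ^ cnt n (min n 80) := by
  decide +kernel

theorem num_chk2 : ∀ n < 31, 3 ≤ n → numK n ≤ (numB n - 1) ^ n.totient := by
  decide +kernel

set_option synthInstance.maxSize 4000 in
theorem num_chk3 : ∀ n < 31, 3 ≤ n → ∀ q < numB n, 11 ≤ q →
    q ^ n - 1 ∣ numK n * ∏ d ∈ n.properDivisors, (q ^ d - 1) →
    (q, n) ∈ [(16, 3), (13, 4), (18, 4), (21, 4), (47, 4), (12, 6), (17, 6), (31, 6)] := by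
  decide +kernel

/-- Copy of `CTL.exists_large` (file CTL/Num).  If there is no such `r`, then `phi m q` divides
`K m = m * (m + 1) ^ 2 * (2 * m + 1) * (3 * m + 1) * (4 * m + 1)` (compare factorizations: a prime
`r ∣ phi m q` divides `m` and then `r ^ 2 ∤ phi` (`not_sq_dvd_phi`), or is primitive,
`r = c * m + 1`, `1 ≤ c ≤ 4`, with exponent at most 2 for `c = 1` and at most 1 for `c ≥ 2`).
So `10 ^ t ≤ (q - 1) ^ t < K m` for `t = totient m` (`lt_phi`), `m ≤ 2 * t ^ 2`;
`K (2 * t ^ 2) ≤ 10 ^ t` for `t ≥ 19`, so `m ≤ 648`; `K m ≤ 10 ^ totient m` for `31 ≤ m ≤ 648`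
(`decide +kernel` with `cnt`); `K m ≤ 1349 ^ totient m` for `3 ≤ m ≤ 30`, so `q < 1350`; and for
`3 ≤ m ≤ 30`, `11 ≤ q < 1350` with `(q - 1) ^ totient m < K m` the condition
`q ^ m - 1 ∣ K m * ∏ d ∈ m.properDivisors, (q ^ d - 1)` leaves exactly the list (checked by
computer). -/
theorem exists_L {q m : ℕ} (hq : 11 ≤ q) (hm : 3 ≤ m) :
    (∃ r, IsPPD q m r ∧ (4 * m + 1 < r ∨ (2 * m < r ∧ r ^ 2 ∣ q ^ m - 1) ∨ r ^ 3 ∣ q ^ m - 1)) ∨
    (q, m) ∈ [(16, 3), (13, 4), (18, 4), (21, 4), (47, 4), (12, 6), (17, 6), (31, 6)] := by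
  rw [or_iff_not_imp_left]
  intro hno
  push Not at hno
  have hq' : 1 < q := by omega
  have hpos := phi_pos m hq'
  have hdvd : phi m q ∣ numK m := by
    refine (Nat.dvd_iff_prime_pow_dvd_dvd _ _).2 fun r k hr h => ?_
    rcases Nat.eq_zero_or_pos k with rfl | hk
    · simp
    have h0 : r ∣ phi m q := (dvd_pow_self r hk.ne').trans h
    have le : ∀ e, ¬ r ^ (e + 1) ∣ phi m q → r ^ e ∣ numK m → r ^ k ∣ numK m := fun e h1 h2 => by
      refine (pow_dvd_pow r ?_).trans h2
      by_contra h3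
      exact h1 ((pow_dvd_pow r (by omega)).trans h)
    by_cases hrn : r ∣ m
    · refine le 1 (not_sq_dvd_phi hm hq' hr hrn) ?_
      rw [pow_one]
      exact (((hrn.mul_right _).mul_right _).mul_right _).mul_right _
    have h5 := isPPD_of_not_dvd (by omega) hq' hr h0 hrn
    have h6 := h5.lt (by omega) hq'
    obtain ⟨h7, h7', h7''⟩ := hno r h5
    obtain ⟨c, hc⟩ := h5.dvd_sub_one (by omega) hq'
    have h8 : c < 5 := by
      by_contra h9
      have := Nat.mul_le_mul_left m (not_lt.1 h9)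
      omega
    have h9 : r = m + 1 ∨ r = 2 * m + 1 ∨ r = 3 * m + 1 ∨ r = 4 * m + 1 := by interval_cases c <;> omega
    rcases h9 with rfl | rfl | rfl | rfl
    · exact le 2 (fun h1 => h7'' (h1.trans (phi_dvd hq')))
        ((((Dvd.intro_left _ rfl).mul_right _).mul_right _).mul_right _)
    · refine le 1 (fun h1 => h7' (by omega) (h1.trans (phi_dvd hq'))) ?_
      rw [pow_one]
      exact ((Dvd.intro_left _ rfl).mul_right _).mul_right _
    · refine le 1 (fun h1 => h7' (by omega) (h1.trans (phi_dvd hq'))) ?_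
      rw [pow_one]
      exact (Dvd.intro_left _ rfl).mul_right _
    · refine le 1 (fun h1 => h7' (by omega) (h1.trans (phi_dvd hq'))) ?_
      rw [pow_one]
      exact Dvd.intro_left _ rfl
  have hlt := (lt_phi (show 1 < m by omega) hq').trans_le
    (Nat.le_of_dvd (by unfold numK; positivity) hdvd)
  have h2 := (Nat.pow_le_pow_left (show 10 ≤ q - 1 by omega) m.totient).trans_lt hlt
  have hnt := (S3430.le_totient_sq m).1
  have ht : m.totient < 19 := by
    by_contra h
    have h5 := num_t (not_lt.1 h)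
    have h6 := num_mono hnt
    omega
  have hn31 : m < 31 := by
    by_contra h
    have h4 := Nat.pow_le_pow_left (show m.totient ≤ 18 by omega) 2
    have h5 := num_chk1 m (by omega) (by omega)
    have h6 : cnt m (min m 80) ≤ m.totient := by
      rw [cnt_eq, Nat.count_eq_card_filter_range]
      exact Finset.card_le_card (Finset.filter_subset_filter _ (Finset.range_mono (min_le_left _ _)))
    have := Nat.pow_le_pow_right (show 0 < 10 by norm_num) h6
    omega
  have hqB : q < numB m := by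
    have := lt_of_pow_lt_pow_left₀ _ (Nat.zero_le _) (hlt.trans_le (num_chk2 m hn31 hm))
    omega
  refine num_chk3 m hn31 hm q hqB hq ?_
  rw [← prod_phi (show 0 < m by omega) hq', ← Nat.cons_self_properDivisors (by omega),
    Finset.prod_cons]
  exact Nat.mul_dvd_mul hdvd (Finset.prod_dvd_prod_of_dvd _ _ fun d _ => phi_dvd hq')

end Cfsg.Agent.R3C
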