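import Mathlib
import Cfsg.Agent.R3C.Bas

/-! S4881: two orbits on the dual space. -/

set_option autoImplicit false
set_option linter.unusedSectionVars false

namespace Cfsg.Agent.R3C

open Module Subgroup Cfsg Cfsg.Agent.Char Cfsg.Agent.Perm.SemiLin Cfsg.Agent.CTL Misc.Zsig

variable {p : ℕ} [hp : Fact p.Prime] {V : Type*} [AddCommGroup V] [Module (ZMod p) V] [Finite V]
  {G : Type*} [Group G] [Finite G] {ρ : G →* End (ZMod p) V} {v w : V}

/-- The kernel of `ρ g - 1` and the kernel of `dual ρ g - 1 = (ρ g⁻¹ - 1).dualMap` have the same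
dimension (`LinearMap.finrank_range_dualMap_eq_finrank_range`, rank-nullity,
`Subspace.dual_finrank_eq`; `ρ g` and `ρ g⁻¹` have the same fixed vectors), so the same size
(`card_submodule`). -/
theorem card_fix_dual (ρ : G →* End (ZMod p) V) (g : G) :
    Nat.card {φ : Dual (ZMod p) V // dual ρ g φ = φ} = Nat.card {u : V // ρ g u = u} := by
  have e1 : Nat.card {φ : Dual (ZMod p) V // dual ρ g φ = φ} =
      Nat.card (LinearMap.ker (ρ g⁻¹ - 1).dualMap) :=
    Nat.card_congr (Equiv.subtypeEquivRight fun φ => by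
      simp [LinearMap.ext_iff, dual_apply, sub_eq_zero])
  have e2 : Nat.card {u : V // ρ g u = u} = Nat.card (LinearMap.ker (ρ g⁻¹ - 1)) :=
    Nat.card_congr (Equiv.subtypeEquivRight fun u => by
      rw [LinearMap.mem_ker, LinearMap.sub_apply, End.one_apply, sub_eq_zero, ← mem_stab, ← mem_stab,
        inv_mem_iff])
  have a := LinearMap.finrank_range_add_finrank_ker (ρ g⁻¹ - 1).dualMap
  have b := LinearMap.finrank_range_add_finrank_ker (ρ g⁻¹ - 1)
  rw [LinearMap.finrank_range_dualMap_eq_finrank_range, Subspace.dual_finrank_eq] at a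
  rw [e1, e2, card_submodule, card_submodule]
  congr 1
  omega

theorem DuA.burn [Fintype G] (ρ : G →* End (ZMod p) V) :
    ∑ g, Nat.card {u : V // ρ g u = u} = (Set.range (orb ρ)).ncard * Nat.card G := by
  classical
  let _ : MulAction G V := MulAction.compHom V ρ
  have := Fintype.ofFinite V
  have := Fintype.ofFinite (Quotient (MulAction.orbitRel G V))
  have h := MulAction.sum_card_fixedBy_eq_card_orbits_mul_card_group G V
  simp only [← Nat.card_eq_fintype_card] at h
  have e : MulAction.orbitRel G V = Setoid.ker (orb ρ) := Setoid.ext fun a b =>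
    MulAction.orbitRel_apply.trans (MulAction.orbit_eq_iff (G := G)).symm
  rw [e, Nat.card_congr (Setoid.quotientKerEquivRange (orb ρ))] at h
  exact h

/-- Burnside (`MulAction.sum_card_fixedBy_eq_card_orbits_mul_card_group` for
`MulAction.compHom V ρ` and `MulAction.compHom (Dual _ V) (dual ρ)`) and `card_fix_dual`: `G` has
three orbits on the dual space as well; one of them is `{0}`.  `dual ρ` is injective since
functionals separate vectors (`Module.forall_dual_apply_eq_zero_iff`). -/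
theorem Two.exists_dual (h : Two ρ v w) : ∃ φ ψ, Two (dual ρ) φ ψ := by
  have := Fintype.ofFinite G
  have n0 : ∀ {V : Type _} [AddCommGroup V] [Module (ZMod p) V] [Finite V] (σ : G →* End (ZMod p) V)
      {u : V}, u ≠ 0 → orb σ u ≠ orb σ 0 := fun σ u hu e => zero_notMem_orb hu (e ▸ self_mem_orb σ 0)
  have e1 : (Set.range (orb ρ)).ncard = 3 := Set.ncard_eq_three.2 ⟨orb ρ 0, orb ρ v, orb ρ w,
    (n0 ρ h.hv).symm, (n0 ρ h.hw).symm, fun e => h.ne (e ▸ self_mem_orb ρ w), by
      refine le_antisymm ?_ (by rintro _ (rfl | rfl | rfl) <;> exact ⟨_, rfl⟩)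
      rintro _ ⟨u, rfl⟩
      by_cases c : u = 0
      · exact .inl (c ▸ rfl)
      · exact .inr ((h.all u c).imp orb_eq orb_eq)⟩
  have e2 : (Set.range (orb (dual ρ))).ncard = 3 := Nat.eq_of_mul_eq_mul_right (Nat.card_pos (α := G)) (by
    rw [← DuA.burn, ← e1, ← DuA.burn]
    exact Finset.sum_congr rfl fun g _ => card_fix_dual ρ g)
  obtain ⟨_, _, ne, e⟩ := (Set.ncard_eq_two (s := Set.range (orb (dual ρ)) \ {orb (dual ρ) 0})).1 (by
    rw [Set.ncard_sdiff_singleton_of_mem (Set.mem_range_self 0), e2])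
  obtain ⟨⟨φ, rfl⟩, h1⟩ := e.ge (Set.mem_insert _ _)
  obtain ⟨⟨ψ, rfl⟩, h2⟩ := e.ge (Set.mem_insert_of_mem _ rfl)
  refine ⟨φ, ψ, fun a b c => inv_injective (h.inj (LinearMap.ext fun u => ?_)), h.cop,
    fun c => h1 (c ▸ rfl), fun c => h2 (c ▸ rfl), fun c => ne (orb_eq c).symm, fun u hu =>
      (e.le ⟨⟨u, rfl⟩, n0 _ hu⟩).imp (fun c : orb _ u = orb _ φ => c ▸ self_mem_orb _ u)
        fun c : orb _ u = orb _ ψ => c ▸ self_mem_orb _ u⟩
  rw [← sub_eq_zero, ← Module.forall_dual_apply_eq_zero_iff (ZMod p)]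
  intro χ
  rw [map_sub, ← dual_apply, ← dual_apply, c, sub_self]

end Cfsg.Agent.R3C
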