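import Mathlib
import Cfsg.Agent.R3C.Bas

/-! S4881: the orbits on the dual space have the same sizes. -/

set_option autoImplicit false
set_option linter.unusedSectionVars false

namespace Cfsg.Agent.R3C

open Module Subgroup Cfsg Cfsg.Agent.Char Cfsg.Agent.Perm.SemiLin Cfsg.Agent.CTL Misc.Zsig

variable {p : ℕ} [hp : Fact p.Prime] {V : Type*} [AddCommGroup V] [Module (ZMod p) V] [Finite V]
  {G : Type*} [Group G] [Finite G] {ρ : G →* End (ZMod p) V} {v w : V}

theorem exists_avg (hG : ¬ p ∣ Nat.card G) (ρ : G →* End (ZMod p) V) (H : Subgroup G)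
    (l : V →ₗ[ZMod p] ZMod p) {x : V} (hx : l x ≠ 0) (hl : ∀ k ∈ H, l (ρ k x) = l x) :
    ∃ y : V, y ≠ 0 ∧ H ≤ stab ρ y := by
  have := Fintype.ofFinite H
  refine ⟨∑ k : H, ρ k x, fun e => ?_, fun g hg => ?_⟩
  · have h1 := congrArg l e
    rw [map_sum, map_zero, Finset.sum_congr rfl fun (k : H) _ => hl k k.2, Finset.sum_const, Finset.card_univ,
      nsmul_eq_mul, mul_eq_zero, ZMod.natCast_eq_zero_iff, ← Nat.card_eq_fintype_card] at h1
    exact h1.elim (fun c => hG (c.trans (card_subgroup_dvd_card H))) hx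
  · rw [mem_stab, map_sum]
    refine Fintype.sum_equiv (Equiv.mulLeft ⟨g, hg⟩) _ _ fun k => ?_
    rw [← End.mul_apply, ← map_mul]
    rfl

/-- Averaging: choose `φ₀` with `φ₀ u ≠ 0` and put `φ = ∑ k ∈ stab ρ u, dual ρ k φ₀`; then
`φ u = |stab| * φ₀ u ≠ 0`. -/
theorem exists_stab_le_dual (hG : ¬ p ∣ Nat.card G) {u : V} (hu : u ≠ 0) :
    ∃ φ : Dual (ZMod p) V, φ ≠ 0 ∧ stab ρ u ≤ stab (dual ρ) φ := by
  obtain ⟨φ, hφ⟩ := Module.Projective.exists_dual_ne_zero (ZMod p) hu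
  exact exists_avg hG (dual ρ) _ (Dual.eval (ZMod p) V u) (x := φ) hφ fun k hk =>
    congrArg φ (mem_stab.1 (inv_mem hk))

/-- Averaging: choose `u₀` with `φ u₀ ≠ 0` and put `u = ∑ k ∈ stab (dual ρ) φ, ρ k u₀`. -/
theorem exists_stab_dual_le (hG : ¬ p ∣ Nat.card G) {φ : Dual (ZMod p) V} (hφ : φ ≠ 0) :
    ∃ u : V, u ≠ 0 ∧ stab (dual ρ) φ ≤ stab ρ u := by
  obtain ⟨u, hu⟩ := DFunLike.ne_iff.1 hφ
  refine exists_avg hG ρ _ φ (x := u) hu fun k hk => ?_
  have := DFunLike.congr_fun (mem_stab.1 (inv_mem hk)) u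
  rwa [dual_apply, inv_inv] at this

/-- Let `a, b` and `f, g` be the orbit sizes (`ncard_orb`: indices of stabilizers; `orb_eq`).  By
the two lemmas each of `a, b` is at least `f` or at least `g`, and each of `f, g` is at least `a`
or at least `b`; also `a + b = f + g` (`Two.sum`, `|Dual V| = |V|`); `omega`. -/
theorem Two.dual_sizes (h : Two ρ v w) {φ ψ : Dual (ZMod p) V} (h1 : Two (dual ρ) φ ψ) :
    ((orb (dual ρ) φ).ncard = (orb ρ v).ncard ∧ (orb (dual ρ) ψ).ncard = (orb ρ w).ncard) ∨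
    ((orb (dual ρ) φ).ncard = (orb ρ w).ncard ∧ (orb (dual ρ) ψ).ncard = (orb ρ v).ncard) := by
  have k1 : ∀ u : V, u ≠ 0 → (orb (dual ρ) φ).ncard ≤ (orb ρ u).ncard ∨
      (orb (dual ρ) ψ).ncard ≤ (orb ρ u).ncard := fun u hu => by
    obtain ⟨χ, h2, h3⟩ := exists_stab_le_dual (ρ := ρ) h.cop hu
    have := index_antitone h3
    rw [← ncard_orb, ← ncard_orb] at this
    rcases h1.all χ h2 with e | e <;> rw [orb_eq e] at this <;> simp only [this, true_or, or_true]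
  have k2 : ∀ χ : Dual (ZMod p) V, χ ≠ 0 → (orb ρ v).ncard ≤ (orb (dual ρ) χ).ncard ∨
      (orb ρ w).ncard ≤ (orb (dual ρ) χ).ncard := fun χ hχ => by
    obtain ⟨u, h2, h3⟩ := exists_stab_dual_le (ρ := ρ) h.cop hχ
    have := index_antitone h3
    rw [← ncard_orb, ← ncard_orb] at this
    rcases h.all u h2 with e | e <;> rw [orb_eq e] at this <;> simp only [this, true_or, or_true]
  have k3 : Nat.card (Dual (ZMod p) V) = Nat.card V :=
    Nat.card_congr (Module.finBasis (ZMod p) V).toDualEquiv.symm.toEquiv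
  have := h.sum
  have := h1.sum
  have := k1 v h.hv
  have := k1 w h.hw
  have := k2 φ h1.hv
  have := k2 ψ h1.hw
  omega

end Cfsg.Agent.R3C
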