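import Mathlib
import Cfsg.Agent.R3C.Defs

/-! S4881: first and second moment of the Fourier coefficients. -/

set_option autoImplicit false
set_option linter.unusedSectionVars false

namespace Cfsg.Agent.R3C

open Module Subgroup Cfsg Cfsg.Agent.Char Cfsg.Agent.Perm.SemiLin Cfsg.Agent.CTL Misc.Zsig

variable {p : ℕ} [hp : Fact p.Prime] {V : Type*} [AddCommGroup V] [Module (ZMod p) V] [Finite V]
  {G : Type*} [Group G] [Finite G] {ρ : G →* End (ZMod p) V} {v w : V}

/-- the weight function -/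
def mEps (t : ZMod p) : ℤ := (if t = 0 then 1 else 0) - if t = 1 then 1 else 0

theorem mEps_sum (h : ZMod p → ℤ) : ∑ t, mEps t * h t = h 0 - h 1 := by
  simp [mEps, sub_mul, Finset.sum_sub_distrib]

theorem mEps_zero : mEps (0 : ZMod p) = 1 := by simp [mEps]

theorem mom_ex {W : Submodule (ZMod p) V} {x : V} (hx : x ∉ W) :
    ∃ φ : Dual (ZMod p) V, φ x = 1 ∧ ∀ w ∈ W, φ w = 0 := by
  obtain ⟨f, h1, h2⟩ := W.exists_dual_map_eq_bot_of_notMem hx inferInstance
  exact ⟨(f x)⁻¹ • f, by simp [h1], fun w hw => by simp [show f w = 0 from h2.le ⟨w, hw, rfl⟩]⟩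

theorem mom_tr [Fintype (Dual (ZMod p) V)] (f : Dual (ZMod p) V → ℤ) (ψ : Dual (ZMod p) V) {k : ℤ}
    (h : ∀ φ, ∑ t : ZMod p, f (φ + t • ψ) = p * k) : ∑ φ, f φ = Nat.card V * k := by
  have := Module.Finite.of_finite (R := ZMod p) (M := V)
  have c : Fintype.card (Dual (ZMod p) V) = Nat.card V := by
    rw [← Nat.card_eq_fintype_card]
    exact Nat.card_congr (Module.Free.chooseBasis (ZMod p) V).toDualEquiv.toEquiv.symm
  have e := Finset.sum_congr rfl fun φ (_ : φ ∈ Finset.univ) => h φ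
  rw [Finset.sum_comm, Finset.sum_congr rfl fun t _ => show ∑ φ, f (φ + t • ψ) = _ from
    Equiv.sum_comp (Equiv.addRight (t • ψ)) f] at e
  simp only [Finset.sum_const, Finset.card_univ, ZMod.card, nsmul_eq_mul, c] at e
  exact mul_left_cancel₀ (Nat.cast_ne_zero.2 hp.out.ne_zero) (e.trans (by ring))

theorem mom_one [Fintype (Dual (ZMod p) V)] {u : V} (hu : u ≠ 0) (g : ZMod p → ℤ) {k : ℤ}
    (h : ∑ t, g t = p * k) : ∑ φ : Dual (ZMod p) V, g (φ u) = Nat.card V * k := by
  obtain ⟨ψ, h1, -⟩ := mom_ex (p := p) (W := ⊥) hu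
  refine mom_tr _ ψ fun φ => ?_
  simp only [LinearMap.add_apply, LinearMap.smul_apply, h1, smul_eq_mul, mul_one]
  exact (Equiv.sum_comp (Equiv.addLeft (φ u)) g).trans h

/-- Put `ε 0 = 1`, `ε 1 = -1`, `ε t = 0` otherwise (`∑ t, ε t = 0`), so `th O φ = ∑ u ∈ O, ε (φ u)`.
For `u ≠ 0` the linear map `φ ↦ φ u` is onto `ZMod p`, so all fibres have the size `|V| / p`
(`|Dual V| = |V|`) and `∑ φ, ε (φ u) = 0`.  For the squares: if `x` is not a multiple of `u`, then
`φ ↦ (φ u, φ x)` is onto, all fibres have the same size and `∑ φ, ε (φ u) * ε (φ x) = 0` (or: pick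
`φ₁` with `φ₁ u = 0`, `φ₁ x = 1` and sum over the translates `φ + t • φ₁`); if `x = c • u`,
`c ≠ 0`, the sum is `|V| / p * ∑ t, ε t * ε (c * t) = |V| / p * (1 + if c = 1 then 1 else 0)`;
the multiples of `u` in `O` are exactly the `c • u`, `c ≠ 0`, and the sum over `c` is `|V|`. -/
theorem mom [Fintype (Dual (ZMod p) V)] {O : Set V} (h0 : (0 : V) ∉ O)
    (hs : ∀ c : ZMod p, c ≠ 0 → ∀ u ∈ O, c • u ∈ O) :
    ∑ φ : Dual (ZMod p) V, th O φ = 0 ∧
      ∑ φ : Dual (ZMod p) V, th O φ ^ 2 = O.ncard * Nat.card V := by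
  classical
  have := Fintype.ofFinite V
  have s0 : ∑ t : ZMod p, mEps t = 0 := by simpa using mEps_sum (p := p) fun _ => 1
  have e : ∀ φ : Dual (ZMod p) V, th O φ = ∑ u ∈ O.toFinset, mEps (φ u) := fun φ => by
    have k : ∀ c, ((O ∩ {u | φ u = c}).ncard : ℤ) = ∑ u ∈ O.toFinset, if φ u = c then 1 else 0 := fun c => by
      rw [Finset.sum_boole, ← Set.ncard_coe_finset]
      congr 2
      ext u
      simp
    rw [th, k, k, ← Finset.sum_sub_distrib]
    rfl
  simp only [e, sq, Finset.sum_mul_sum]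
  have n : ∀ u ∈ O.toFinset, u ≠ 0 := fun u hu c => h0 (c ▸ Set.mem_toFinset.1 hu)
  constructor
  · rw [Finset.sum_comm]
    exact Finset.sum_eq_zero fun u hu => (mom_one (n u hu) mEps (k := 0) (by rw [s0, mul_zero])).trans (mul_zero _)
  rw [Finset.sum_comm, Set.ncard_eq_toFinset_card', ← nsmul_eq_mul, ← Finset.sum_const]
  refine Finset.sum_congr rfl fun u hu => ?_
  rw [Finset.sum_comm, ← Finset.sum_subset (s₁ := (Finset.univ.erase (0 : ZMod p)).image (· • u)) (fun x hx => ?_)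
    fun x _ hx => ?_, Finset.sum_image fun a _ b _ c => smul_left_injective _ (n u hu) c, Finset.sum_comm]
  · simp only [map_smul, smul_eq_mul, ← Finset.mul_sum]
    refine (mom_one (n u hu) (fun s => mEps s * ∑ c ∈ Finset.univ.erase 0, mEps (c * s)) (k := 1) ?_).trans (mul_one _)
    rw [mEps_sum]
    simp [s0, mEps_zero, hp.out.one_le]
  · obtain ⟨c, hc, rfl⟩ := Finset.mem_image.1 hx
    exact Set.mem_toFinset.2 (hs c (Finset.ne_of_mem_erase hc) u (Set.mem_toFinset.1 hu))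
  · obtain ⟨ψ, h1, h2⟩ := mom_ex (W := Submodule.span (ZMod p) {u}) (x := x) fun a => by
      obtain ⟨c, rfl⟩ := Submodule.mem_span_singleton.1 a
      refine hx (Finset.mem_image_of_mem _ (Finset.mem_erase.2 ⟨?_, Finset.mem_univ _⟩))
      rintro rfl
      exact n _ ‹_› (zero_smul _ _)
    refine (mom_tr _ ψ (k := 0) fun φ => ?_).trans (mul_zero _)
    simp only [LinearMap.add_apply, LinearMap.smul_apply, h1, h2 u (Submodule.mem_span_singleton_self u),
      smul_eq_mul, mul_one, mul_zero, add_zero, ← Finset.mul_sum]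
    rw [show ∑ t, mEps (φ x + t) = 0 from (Equiv.sum_comp (Equiv.addLeft (φ x)) mEps).trans s0, mul_zero]

end Cfsg.Agent.R3C
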