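import Mathlib
import Cfsg.Agent.R3C.DuA
import Cfsg.Agent.R3C.DuB
import Cfsg.Agent.R3C.Mom

/-! S4881: Latin square or negative Latin square parameters. -/

set_option autoImplicit false
set_option linter.unusedSectionVars false

namespace Cfsg.Agent.R3C

open Module Subgroup Cfsg Cfsg.Agent.Char Cfsg.Agent.Perm.SemiLin Cfsg.Agent.CTL Misc.Zsig

variable {p : ℕ} [hp : Fact p.Prime] {V : Type*} [AddCommGroup V] [Module (ZMod p) V] [Finite V]
  {G : Type*} [Group G] [Finite G] {ρ : G →* End (ZMod p) V} {v w : V}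

/-- Let `d = gcd a b`, `a = d * a₀`, `b = d * b₀`.  The first equation is `a₀ (x + 1) = - b₀ y`, so
`x + 1 = b₀ t`, `y = - a₀ t` for an integer `t`.  The second equation divided by `d a₀ b₀` is
`c t ^ 2 - 2 t = d` with `c = a₀ + b₀`, `c d + 1 = N`.  So `(c t - 1) ^ 2 = N`; put
`s = |c t - 1|`: `d = t (c t - 2)` is `t (s - 1)` or `- t (s + 1)`. -/
theorem srg_arith {a b N : ℕ} {x y : ℤ} (ha : 0 < a) (hb : 0 < b) (hN : a + b + 1 = N)
    (h1 : (a : ℤ) + a * x + b * y = 0) (h2 : (a : ℤ) ^ 2 + a * x ^ 2 + b * y ^ 2 = a * N) :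
    ∃ s : ℕ, s ^ 2 = N ∧ ((s - 1 ∣ a ∧ s - 1 ∣ b) ∨ (s + 1 ∣ a ∧ s + 1 ∣ b)) := by
  obtain ⟨d, a₀, b₀, hd, hc, rfl, rfl⟩ := Nat.exists_coprime' (Nat.gcd_pos_of_pos_left b ha)
  have d0 : (d : ℤ) ≠ 0 := by exact_mod_cast hd.ne'
  have a0 : (a₀ : ℤ) ≠ 0 := by
    have : a₀ ≠ 0 := by rintro rfl; simp at ha
    exact_mod_cast this
  have b0 : (b₀ : ℤ) ≠ 0 := by
    have : b₀ ≠ 0 := by rintro rfl; simp at hb
    exact_mod_cast this
  have hN' : (N : ℤ) = a₀ * d + b₀ * d + 1 := by exact_mod_cast hN.symm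
  rw [hN'] at h2
  push_cast at h1 h2
  have e1 : (a₀ : ℤ) * (x + 1) = -(b₀ * y) := mul_left_cancel₀ d0 (by linear_combination h1)
  obtain ⟨t, ht⟩ : (b₀ : ℤ) ∣ x + 1 :=
    (Nat.isCoprime_iff_coprime.2 hc.symm).dvd_of_dvd_mul_left ⟨-y, by linear_combination e1⟩
  obtain rfl : y = -(a₀ * t) := mul_left_cancel₀ b0 (by rw [ht] at e1; linear_combination e1)
  obtain rfl : x = b₀ * t - 1 := by linear_combination ht
  have e2 : ((a₀ : ℤ) + b₀) * t ^ 2 - 2 * t = d :=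
    mul_left_cancel₀ (mul_ne_zero (mul_ne_zero d0 a0) b0) (by linear_combination h2)
  obtain ⟨u, hu⟩ : ∃ u : ℤ, u = ((a₀ : ℤ) + b₀) * t - 1 := ⟨_, rfl⟩
  have e3 : u ^ 2 = N := by rw [hN', hu]; linear_combination ((a₀ : ℤ) + b₀) * e2
  have e4 : (d : ℤ) = (u - 1) * t := by rw [hu]; linear_combination -e2
  refine ⟨u.natAbs, by zify; rw [sq_abs]; exact e3, ?_⟩
  rcases le_or_gt u 0 with h | h
  · have : u.natAbs + 1 ∣ d := Int.natCast_dvd_natCast.1
      ⟨-t, by rw [show ((u.natAbs + 1 : ℕ) : ℤ) = 1 - u by omega]; linear_combination e4⟩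
    exact Or.inr ⟨this.mul_left _, this.mul_left _⟩
  · have : u.natAbs - 1 ∣ d := Int.natCast_dvd_natCast.1
      ⟨t, by rw [show ((u.natAbs - 1 : ℕ) : ℤ) = u - 1 by omega]; exact e4⟩
    exact Or.inl ⟨this.mul_left _, this.mul_left _⟩

/-- Sums of invariant functions. -/
theorem Two.srg_sum [Fintype V] (h : Two ρ v w) (F : V → ℤ) (hF : ∀ g u, F (ρ g u) = F u) :
    ∑ u, F u = F 0 + (orb ρ v).ncard * F v + (orb ρ w).ncard * F w := by
  classical
  have key : ∀ (O : Set V) (c : ℤ), ∑ u, (if u ∈ O then c else 0) = O.ncard * c := fun O c => by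
    rw [← Finset.sum_filter, Finset.sum_const, nsmul_eq_mul, Set.ncard_eq_toFinset_card']
    congr 3
    ext
    simp
  have pt : ∀ u, F u = (if u = 0 then F 0 else 0) + (if u ∈ orb ρ v then F v else 0) +
      (if u ∈ orb ρ w then F w else 0) := fun u => by
    by_cases h0 : u = 0
    · subst h0
      simp [zero_notMem_orb h.hv, zero_notMem_orb h.hw]
    rcases h.all u h0 with e | e
    · have e' : u ∉ orb ρ w := Set.disjoint_left.1 h.disj e
      rw [if_neg h0, if_pos e, if_neg e']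
      obtain ⟨g, rfl⟩ := e
      rw [hF, zero_add, add_zero]
    · have e' : u ∉ orb ρ v := Set.disjoint_right.1 h.disj e
      rw [if_neg h0, if_pos e, if_neg e']
      obtain ⟨g, rfl⟩ := e
      rw [hF, zero_add, zero_add]
  rw [Finset.sum_congr rfl fun u _ => pt u, Finset.sum_add_distrib, Finset.sum_add_distrib, key, key,
    Finset.sum_ite_eq', if_pos (Finset.mem_univ _)]

theorem srg_th (g : G) (φ : Dual (ZMod p) V) : th (orb ρ v) (dual ρ g φ) = th (orb ρ v) φ := by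
  have c1 : ∀ u, ρ g (ρ g⁻¹ u) = u := fun u => by
    rw [← End.mul_apply, ← map_mul, mul_inv_cancel, map_one, End.one_apply]
  have c2 : ∀ u, ρ g⁻¹ (ρ g u) = u := fun u => by
    rw [← End.mul_apply, ← map_mul, inv_mul_cancel, map_one, End.one_apply]
  have key : ∀ c : ZMod p,
      (orb ρ v ∩ {u | dual ρ g φ u = c}).ncard = (orb ρ v ∩ {u | φ u = c}).ncard := fun c => by
    refine Set.ncard_congr (fun u _ => ρ g⁻¹ u) (fun u hu => ⟨(apply_mem_orb _).2 hu.1, hu.2⟩)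
      (fun u u' _ _ e => by rw [← c1 u, ← c1 u']; exact congrArg (ρ g) e) fun u hu => ?_
    refine ⟨ρ g u, ⟨(apply_mem_orb _).2 hu.1, ?_⟩, c2 u⟩
    change φ (ρ g⁻¹ (ρ g u)) = c
    rw [c2]
    exact hu.2
  unfold th
  rw [key, key]

theorem srg_th0 (O : Set V) : th O (0 : Dual (ZMod p) V) = O.ncard := by
  simp [th]

/-- Take `φ, ψ` from `Two.exists_dual`, ordered (`Two.dual_sizes`, `Two.symm`) so that their orbits
have the sizes `a` of `O = orb ρ v` and `b` of `orb ρ w`.  `O` is closed under non-zero scalars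
(`Two.smul_mem`, `orb_eq`), `th O 0 = a`, and `th O` is constant on the orbits of `dual ρ`
(`u ↦ ρ g u` permutes `O`: `apply_mem_orb`, `dual_apply`).  Split the sums in `mom` into `{0}` and
the two dual orbits (`Two.disj`, `Two.all`), apply `srg_arith` with `x = th O φ`, `y = th O ψ`;
`s ^ 2 = p ^ n` gives `s = p ^ m` (`Nat.dvd_prime_pow`), `n = 2 * m`. -/
theorem Two.srg (h : Two ρ v w) (hne : (orb ρ v).ncard ≠ (orb ρ w).ncard) {n : ℕ}
    (hn : Nat.card V = p ^ n) : ∃ m, n = 2 * m ∧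
      ((p ^ m - 1 ∣ (orb ρ v).ncard ∧ p ^ m - 1 ∣ (orb ρ w).ncard) ∨
        (p ^ m + 1 ∣ (orb ρ v).ncard ∧ p ^ m + 1 ∣ (orb ρ w).ncard)) := by
  classical
  letI : Fintype (Dual (ZMod p) V) := Fintype.ofFinite _
  obtain ⟨φ, ψ, h1, e1, e2⟩ : ∃ φ ψ, Two (dual ρ) φ ψ ∧ (orb (dual ρ) φ).ncard = (orb ρ v).ncard ∧
      (orb (dual ρ) ψ).ncard = (orb ρ w).ncard := by
    obtain ⟨φ, ψ, h1⟩ := h.exists_dual
    rcases h.dual_sizes h1 with e | e
    · exact ⟨φ, ψ, h1, e⟩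
    · exact ⟨ψ, φ, h1.symm, e.2, e.1⟩
  obtain ⟨m1, m2⟩ := mom (O := orb ρ v) (zero_notMem_orb h.hv) fun c hc u hu => by
    rw [← orb_eq hu]; exact h.smul_mem hne hc u
  rw [h1.srg_sum (th (orb ρ v)) srg_th, srg_th0, e1, e2] at m1
  rw [h1.srg_sum (fun φ => th (orb ρ v) φ ^ 2) fun g u => by rw [srg_th], srg_th0, e1, e2] at m2
  obtain ⟨s, hs, hd⟩ := srg_arith (ncard_orb_pos ρ v) (ncard_orb_pos ρ w) h.sum m1 m2
  rw [hn] at hs
  obtain ⟨m, -, rfl⟩ := (Nat.dvd_prime_pow hp.out).1 (show s ∣ p ^ n from hs ▸ dvd_pow_self s two_ne_zero)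
  refine ⟨m, ?_, hd⟩
  rw [← pow_mul] at hs
  rw [← Nat.pow_right_injective hp.out.two_le hs, mul_comm]

end Cfsg.Agent.R3C
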