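import Mathlib
import Cfsg.Agent.R3C.Srg
import Cfsg.Agent.R3C.Cov
import Cfsg.Agent.R3C.Ex
import Cfsg.Agent.R3C.LN
import Cfsg.Agent.R3C.Num
import Cfsg.Agent.R3C.CaseX

/-! S4881: the linear case. -/

set_option autoImplicit false
set_option linter.unusedSectionVars false

namespace Cfsg.Agent.R3C

open Module Subgroup Cfsg Cfsg.Agent.Char Cfsg.Agent.Perm.SemiLin Cfsg.Agent.CTL Misc.Zsig

variable {p : ℕ} [hp : Fact p.Prime] {V : Type*} [AddCommGroup V] [Module (ZMod p) V] [Finite V]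
  {G : Type*} [Group G] [Finite G] {ρ : G →* End (ZMod p) V} {v w : V}

theorem num_L {q m : ℕ} (hq : 11 ≤ q) (hm : 3 ≤ m) :
    (q - 1) * (40 * m ^ 2) ^ 2 < q ^ (2 * m) - 1 := by
  have h1 : ∀ m, 3 ≤ m → (40 * m ^ 2) ^ 2 < 11 ^ (2 * m - 1) := fun m hm => by
    induction m, hm using Nat.le_induction with
    | base => norm_num
    | succ k hk ih =>
      have h2 : (40 * (k + 1) ^ 2) ^ 2 ≤ 121 * (40 * k ^ 2) ^ 2 := by
        have h3 : (k + 1) ^ 2 ≤ 11 * k ^ 2 := by nlinarith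
        calc (40 * (k + 1) ^ 2) ^ 2 ≤ (40 * (11 * k ^ 2)) ^ 2 := by gcongr
          _ = 121 * (40 * k ^ 2) ^ 2 := by ring
      rw [show 2 * (k + 1) - 1 = 2 * k - 1 + 2 by omega, pow_add]
      omega
  have h2 := (h1 m hm).trans_le (Nat.pow_le_pow_left hq _)
  obtain ⟨t, rfl⟩ : ∃ t, q = t + 1 := ⟨q - 1, by omega⟩
  have h3 : (t + 1) ^ (2 * m) = (t + 1) ^ (2 * m - 1) * (t + 1) := by
    rw [← pow_succ]; congr 1; omega
  rw [h3, Nat.add_sub_cancel]
  generalize (t + 1) ^ (2 * m - 1) = a at h2 ⊢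
  generalize (40 * m ^ 2) ^ 2 = b at h2 ⊢
  have h4 := Nat.mul_le_mul_left t (Nat.succ_le_of_lt h2)
  refine Nat.lt_sub_of_add_lt ?_
  nlinarith

theorem Two.caseL (h : Two ρ v w) (hp11 : 11 ≤ p) {m : ℕ} (hm : 3 ≤ m)
    (hn : Nat.card V = p ^ (2 * m)) (ha : p ^ m - 1 ∣ (orb ρ v).ncard)
    (hb : p ^ m - 1 ∣ (orb ρ w).ncard) : p ≤ 2 * Nat.card (ConjClasses G) := by
  have hF := fc_of_inj h.inj h.cop hn
  have hd : p ^ m - 1 ∣ Nat.card G := ha.trans (ncard_orb_dvd ρ v)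
  have hs : ∀ u : V, u ≠ 0 → p ^ m - 1 ∣ (stab ρ u).index := fun u hu => by
    rw [← ncard_orb]
    rcases h.all u hu with h1 | h1 <;> rwa [orb_eq h1]
  rcases exists_L hp11 hm with ⟨r, hr, h1⟩ | h1
  · have := Fact.mk hr.1
    have key : ∀ j, 2 * m ≤ r ^ j → r ^ (j + 1) ∣ p ^ m - 1 → pCore r G ≠ ⊥ := fun j hj hd h0 => by
      obtain ⟨x, k, hx, ho⟩ := ex h.inj hn (by omega) hr fun u hu => hd.trans (hs u hu)
      have h2 := bl hF hr.1 hx hj
      rw [h0, mem_bot] at h2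
      have h3 := Nat.le_of_dvd (pow_pos hr.1.pos _) (ho.trans (orderOf_dvd_of_pow_eq_one h2))
      exact absurd (Nat.pow_lt_pow_right hr.1.one_lt j.lt_succ_self) (not_lt.2 h3)
    refine h.of_ab (ln h.inj h.cop h.irr hn hm hr ?_) (hn ▸ num_L hp11 hm)
    rcases h1 with h1 | ⟨h1, h2⟩ | h1
    · obtain ⟨P⟩ : Nonempty (Sylow r G) := inferInstance
      have := lg hF (by omega) P
      exact fun h0 => P.ne_bot_of_dvd_card (hr.2.1.trans hd)
        (eq_bot_iff.2 (h0 ▸ Grp.le_pCore this P.isPGroup'))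
    · exact key 1 (by rw [pow_one]; omega) h2
    · have h2 := hr.lt (by omega) hp.out.one_lt
      exact key 2 (by nlinarith) h1
  · have hp' := hp.out
    simp only [List.mem_cons, Prod.mk.injEq, List.not_mem_nil, or_false] at h1
    rcases h1 with ⟨rfl, rfl⟩ | ⟨rfl, rfl⟩ | ⟨rfl, rfl⟩ | ⟨rfl, rfl⟩ | ⟨rfl, rfl⟩ | ⟨rfl, rfl⟩ |
      ⟨rfl, rfl⟩ | ⟨rfl, rfl⟩
    · norm_num at hp'
    · have := exc13 hF hd; omega
    · norm_num at hp'
    · norm_num at hp'
    · have := exc47 hF hd; omega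
    · norm_num at hp'
    · have := exc17 hF hd; omega
    · have := exc31 hF hd; omega

/-- The main theorem on linear groups. -/
theorem Two.core (h : Two ρ v w) {n : ℕ} (hn2 : 2 ≤ n) (hn : Nat.card V = p ^ n) :
    p ≤ 2 * Nat.card (ConjClasses G) := by
  have hp' := hp.out
  have hc := h.card_le
  by_cases hp11 : p < 11
  · have h1 := Nat.pow_le_pow_right hp'.pos hn2
    have h2 : 0 < Nat.card (ConjClasses G) := Nat.card_pos
    by_cases h5 : 5 ≤ p
    · have := four_le_conj (G := G) (by nlinarith)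
      have h9 : p ≠ 9 := by rintro rfl; norm_num at hp'
      have h10 : p ≠ 10 := by rintro rfl; norm_num at hp'
      omega
    by_cases h3 : p ≤ 2
    · omega
    have : Nontrivial G := Finite.one_lt_card_iff_nontrivial.1 (by nlinarith)
    obtain ⟨g, hg⟩ := exists_ne (1 : G)
    have : Nontrivial (ConjClasses G) := ⟨_, _, fun e =>
      hg (isConj_one_left.1 (ConjClasses.mk_eq_mk_iff_isConj.1 e))⟩
    have := Finite.one_lt_card (α := ConjClasses G)
    omega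
  rw [not_lt] at hp11
  rcases hn2.eq_or_lt with rfl | hn3
  · exact h.dim2 hp11 hn
  by_cases hab : (orb ρ v).ncard = (orb ρ w).ncard
  · refine h.caseX hp11 hn3 hn fun r e hr hd => ?_
    have h1 := h.sum
    have h2 : p ^ n - 1 = 2 * (orb ρ v).ncard := by omega
    have h3 := hr.lt (by omega) hp'.one_lt
    rw [h2] at hd
    exact ((((Nat.coprime_primes hr.1 Nat.prime_two).2 (by omega)).pow_left e).dvd_of_dvd_mul_left
      hd).trans (ncard_orb_dvd ρ v)
  obtain ⟨m, rfl, ⟨ha, hb⟩ | ⟨ha, -⟩⟩ := h.srg hab hn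
  · by_cases hm : 3 ≤ m
    · exact h.caseL hp11 hm hn ha hb
    obtain rfl : m = 2 := by omega
    have h1 := h.cov (fun c hc u => h.smul_mem hab hc u) hn
    have h2 : 0 < Nat.card (ConjClasses G) := Nat.card_pos
    omega
  · refine h.caseX hp11 hn3 hn fun r e hr hd => ?_
    have h2 : p ^ (2 * m) - 1 = (p ^ m - 1) * (p ^ m + 1) := by
      rw [mul_comm 2, pow_mul, mul_comm, ← Nat.sq_sub_sq, one_pow]
    rw [h2] at hd
    exact ((((Nat.Prime.coprime_iff_not_dvd hr.1).2 (hr.2.2 m (by omega) (by omega))).pow_left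
      e).dvd_of_dvd_mul_left hd).trans (ha.trans (ncard_orb_dvd ρ v))

end Cfsg.Agent.R3C
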