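import Mathlib
import Cfsg.Agent.R3C.Core
import Cfsg.Agent.S4878

/-! S4881: the case of an elementary abelian normal Sylow subgroup. -/

set_option autoImplicit false
set_option linter.unusedSectionVars false

namespace Cfsg.Agent.R3C

open Module Subgroup Cfsg Cfsg.Agent.Char Cfsg.Agent.Perm.SemiLin Cfsg.Agent.CTL Misc.Zsig

variable {p : ℕ} [hp : Fact p.Prime] {V : Type*} [AddCommGroup V] [Module (ZMod p) V] [Finite V]
  {G : Type*} [Group G] [Finite G] {ρ : G →* End (ZMod p) V} {v w : V}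

/-- Copy the first half of `S4878.core` (`Pyr.exists_lin`, `ρ`, `hρ`).  `Two ρ a b` for `ι a = x`,
`ι b = y` (a conjugating element `g = h * u`, `h ∈ H`, `u ∈ N`, may be replaced by `h`, see
`S4878.main0`).  `n ≥ 2`: `Two.core`.  `n = 1`: `H` acts by scalars, so it is abelian
(`k = |H|`) and all stabilizers are trivial; `Two.sum`, `ncard_orb` give `2 |H| + 1 = p`, and
`|X| = p |H|`; the embedding `Θ` into `affineGroup` is constructed in `S4878.core`
(use `MonoidHom.codRestrict`). -/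
theorem wrap {X : Type*} [Group X] [Finite X] (N : Subgroup X) [N.Normal]
    (hexp : ∀ u ∈ N, u ^ p = 1) (hself : centralizer (N : Set X) = N) (H : Subgroup X)
    (hNH : IsComplement' N H) (hH : ¬ p ∣ Nat.card H) {x y : X} (hx : x ∈ N) (hy : y ∈ N)
    (hx1 : x ≠ 1) (hy1 : y ≠ 1) (hxy : ¬ IsConj x y)
    (hall : ∀ z ∈ N, z ≠ 1 → IsConj x z ∨ IsConj y z) :
    p ≤ 2 * Nat.card (ConjClasses H) ∨ (p - 1 ≤ 2 * Nat.card (ConjClasses H) ∧ p ≠ 2 ∧
      2 * Nat.card X = p * (p - 1) ∧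
        ∃ f : X →* affineGroup (ZMod p), Function.Injective f) := by
  have hab : ∀ a ∈ N, ∀ b ∈ N, a * b = b * a := fun a ha b hb => (hself.ge hb) a ha
  have hdis : ∀ g ∈ N, g ∈ H → g = 1 := fun g => disjoint_def.1 hNH.disjoint
  obtain ⟨A, _, _, ι, σ, hι, hadd, hmem, hσ⟩ := Pyr.exists_lin H.subtype (V := N)
    (fun g x hx => Normal.conj_mem inferInstance x hx _) p hab hexp
  have h0 : ι 0 = 1 := by simpa using hadd 0 0
  have hιV : ∀ a, ι a ∈ N := fun a => (hmem _).2 ⟨a, rfl⟩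
  have hA : Nat.card A = Nat.card N := Nat.card_congr (Equiv.ofBijective
    (fun a => ⟨ι a, hιV a⟩) ⟨fun a b e => hι (Subtype.mk.inj e), fun x => by
      obtain ⟨a, ha⟩ := (hmem _).1 x.2
      exact ⟨a, Subtype.ext ha⟩⟩)
  have : Finite A := Finite.of_injective _ hι
  let ρ : H →* End (ZMod p) A :=
    { toFun := fun g => (σ g : A →ₗ[ZMod p] A), map_one' := by simp; rfl
      map_mul' := fun a b => by simp }
  have hρ : Function.Injective ρ := (injective_iff_map_eq_one ρ).2 fun g hg =>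
    Subtype.ext (hdis g (hself.le fun x hx => by
      obtain ⟨a, rfl⟩ := (hmem _).1 hx
      have h1 := hσ g a
      rw [show σ g a = a from LinearMap.congr_fun hg a, eq_mul_inv_iff_mul_eq] at h1
      exact h1) g.2)
  have horb : ∀ a b : A, b ∈ orb ρ a ↔ IsConj (ι a) (ι b) := fun a b => by
    refine ⟨fun ⟨g, hg⟩ => isConj_iff.2 ⟨g, (hσ g a).symm.trans (congrArg ι hg)⟩, fun h => ?_⟩
    obtain ⟨g, hg⟩ := isConj_iff.1 h
    obtain ⟨⟨k, u⟩, rfl⟩ := hNH.symm.2 g
    refine ⟨k, hι ((hσ k a).trans (Eq.trans ?_ hg))⟩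
    change (k : X) * ι a * (k : X)⁻¹ = k * u * ι a * ((k : X) * u)⁻¹
    rw [mul_assoc (k : X) u, hab _ u.2 _ (hιV a)]
    group
  obtain ⟨a, rfl⟩ := (hmem _).1 hx
  obtain ⟨b, rfl⟩ := (hmem _).1 hy
  have ht : Two ρ a b := ⟨hρ, hH, fun e => hx1 (e ▸ h0), fun e => hy1 (e ▸ h0),
    fun h => hxy ((horb _ _).1 h), fun u hu => by
      rw [horb, horb]
      exact hall _ (hιV u) fun e => hu (hι (e.trans h0.symm))⟩
  obtain ⟨n, hn⟩ : ∃ n, Nat.card A = p ^ n :=
    ⟨_, by rw [Module.natCard_eq_pow_finrank (K := ZMod p), Nat.card_zmod]⟩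
  have hn0 : n ≠ 0 := by
    rintro rfl
    exact ht.hv ((Nat.card_eq_one_iff_unique.1 hn).1.elim _ _)
  by_cases hn1 : n = 1
  swap
  · exact Or.inl (ht.core (by omega) hn)
  subst hn1
  right
  let f : ZMod p ≃ₗ[ZMod p] A := LinearEquiv.ofFinrankEq _ _
    (by rw [finrank_eq_of_card hn, finrank_self])
  let c : H → ZMod p := fun g => f.symm (σ g (f 1))
  have hc : ∀ g x, σ g (f x) = f (c g * x) := fun g x => by
    rw [mul_comm, ← smul_eq_mul, map_smul, f.apply_symm_apply, ← map_smul, ← map_smul,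
      smul_eq_mul, mul_one]
  have hc1 : ∀ h, c h = 1 → h = 1 := fun h h2 => hρ (LinearMap.ext fun v => by
    obtain ⟨x, rfl⟩ := f.surjective v
    exact (hc h x).trans (by simp [h2]))
  have h1 : Nat.card H ≤ Nat.card (ConjClasses H) :=
    Nat.card_le_card_of_injective ConjClasses.mk fun a b e => by
      obtain ⟨g, rfl⟩ := isConj_iff.1 (ConjClasses.mk_eq_mk_iff_isConj.1 e)
      rw [eq_mul_inv_iff_mul_eq]
      refine hρ (LinearMap.ext fun v => ?_)
      obtain ⟨x, rfl⟩ := f.surjective v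
      change σ (a * g) (f x) = σ (g * a) (f x)
      rw [map_mul, map_mul, LinearEquiv.mul_apply, LinearEquiv.mul_apply, hc, hc, hc, hc,
        mul_left_comm]
  have h2 : ∀ u : A, u ≠ 0 → (orb ρ u).ncard = Nat.card H := fun u hu => by
    rw [ncard_orb, show stab ρ u = ⊥ from eq_bot_iff.2 fun g hg => ?_, index_bot]
    obtain ⟨x, rfl⟩ := f.surjective u
    exact hc1 g ((mul_eq_right₀ fun e => hu (by rw [e, map_zero])).1
      (f.injective ((hc g x).symm.trans hg)))
  have h3 := ht.sum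
  rw [h2 _ ht.hv, h2 _ ht.hw, hn, pow_one] at h3
  have h4 := hNH.card_mul_card
  rw [← hA, hn, pow_one] at h4
  have h5 : 0 < Nat.card H := Nat.card_pos
  refine ⟨by omega, by omega, by rw [← h4, show p - 1 = 2 * Nat.card H by omega]; ring, ?_⟩
  let e : ZMod p ≃ X ⧸ H := Equiv.ofBijective (fun x => ι (f x)) ⟨fun x y h =>
    f.injective (hι (inv_mul_eq_one.1 (hdis _ (mul_mem (inv_mem (hιV _)) (hιV _))
      (QuotientGroup.eq.1 h)))), fun q => by
    obtain ⟨g, rfl⟩ := QuotientGroup.mk_surjective q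
    obtain ⟨⟨v, h⟩, rfl⟩ := hNH.2 g
    obtain ⟨a, ha⟩ := (hmem _).1 v.2
    exact ⟨f.symm a, by simp [ha]⟩⟩
  let Θ : X →* Equiv.Perm (ZMod p) :=
    (e.symm.permCongrHom : _ →* _).comp (MulAction.toPermHom X (X ⧸ H))
  have hΘ : ∀ (b : ZMod p) (h : H) (x : ZMod p), Θ (ι (f b) * h) x = c h * x + b := by
    intro b h x
    refine e.symm_apply_eq.2 ?_
    change ((ι (f b) * h * ι (f x) : X) : X ⧸ H) = ι (f (c h * x + b))
    rw [add_comm, map_add, hadd, ← hc, hσ, QuotientGroup.eq]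
    simp [mul_assoc]
  have hdec : ∀ g : X, ∃ (b : ZMod p) (h : H), g = ι (f b) * h := fun g => by
    obtain ⟨⟨v, h⟩, rfl⟩ := hNH.2 g
    obtain ⟨a, ha⟩ := (hmem _).1 v.2
    exact ⟨f.symm a, h, by simp [ha]⟩
  have hinj : Function.Injective Θ := (injective_iff_map_eq_one Θ).2 fun g hg => by
    obtain ⟨b, h, rfl⟩ := hdec g
    have h1 : b = 0 := by simpa [hg] using (hΘ b h 0).symm
    have h2 : c h = 1 := by
      have := hΘ b h 1
      rw [hg] at this
      simpa [h1] using this.symm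
    simp [h1, hc1 h h2, h0]
  refine ⟨Θ.codRestrict _ fun g => ?_, fun g k e => hinj (congrArg Subtype.val e)⟩
  obtain ⟨b, h, rfl⟩ := hdec g
  exact ⟨Units.mk0 (c h) (by simp [c]), b, hΘ b h⟩

end Cfsg.Agent.R3C
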