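import Mathlib
import Cfsg.Agent.R3C.Wrap

/-! S4881: the case of trivial core. -/

set_option autoImplicit false
set_option linter.unusedSectionVars false

namespace Cfsg.Agent.R3C

open Module Subgroup Cfsg Cfsg.Agent.Char Cfsg.Agent.Perm.SemiLin Cfsg.Agent.CTL Misc.Zsig

variable {p : ℕ} [hp : Fact p.Prime] {V : Type*} [AddCommGroup V] [Module (ZMod p) V] [Finite V]
  {G : Type*} [Group G] [Finite G] {ρ : G →* End (ZMod p) V} {v w : V}

/-- Model: `S4878.main0`.  `O = pCore p G` contains its centralizer and is non-trivial;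
`N = {z ∈ O ⊓ centralizer O | z ^ p = 1}` is a non-trivial normal subgroup.  If both `x` and `y`
lie in `N`, all `p`-elements do, so `N = O` is a self-centralizing Sylow subgroup with a complement
`H`: `wrap`, `card_RC_le`, `card_RC`.  Otherwise say `y ∉ N` (and the non-identity elements of `N`
are conjugate to `x`, so `x ∈ N`); the `p`-elements of `G ⧸ N` are images of `p`-elements
(`N` is a `p`-group), the non-identity ones are conjugate to the image of `y`, so `S4878.result`
applies to `G ⧸ N` (`p`-solvable as in `S4878.result`): at least `p - 1` or (`p = 11`) `9`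
`p`-regular classes; `card_RC_le`, and `p ≤ 2 (p - 1)`. -/
theorem main0 (hsolv : IsPSolvable p G) (hO : pPrimeCore p G = ⊥) (h3 : Three p G) :
    p ≤ 2 * Nat.card (S4878.RC p G) ∨ (p - 1 ≤ 2 * Nat.card (S4878.RC p G) ∧ p ≠ 2 ∧
      2 * Nat.card G = p * (p - 1) ∧
        ∃ f : G →* affineGroup (ZMod p), Function.Injective f) := by
  set V := pCore p G
  have hC : centralizer (V : Set G) ≤ V := PLocal.centralizer_pCore_le_of_isPSolvable hsolv hO
  have hVp : IsPGroup p V := Grp.pCore_isPGroup p G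
  obtain ⟨x, y, hx1, hy1, hxo, hyo, hxy, hall⟩ := h3
  have hV : V ≠ ⊥ := fun h => by
    rw [h, coe_bot, centralizer_eq_top_iff_subset.2 (by simp)] at hC
    exact hx1 (mem_bot.1 (hC (mem_top x)))
  obtain ⟨z, hz⟩ := exists_prime_orderOf_dvd_card' (G := ↥(V ⊓ centralizer (V : Set G))) p
    (prime_dvd_card_center hp.out hVp hV)
  rw [← orderOf_coe] at hz
  let N : Subgroup G :=
    { carrier := {u | u ∈ V ⊓ centralizer (V : Set G) ∧ u ^ p = 1}
      one_mem' := ⟨one_mem _, one_pow _⟩
      mul_mem' := fun {a b} ha hb => ⟨mul_mem ha.1 hb.1, by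
        rw [Commute.mul_pow (hb.1.2 a ha.1.1), ha.2, hb.2, one_mul]⟩
      inv_mem' := fun {a} ha => ⟨inv_mem ha.1, by rw [inv_pow, ha.2, inv_one]⟩ }
  have nN : N.Normal := ⟨fun a ha g => ⟨Normal.conj_mem inferInstance _ ha.1 g, by rw [conj_pow, ha.2]; simp⟩⟩
  have cN : ∀ {a b : G}, IsConj a b → a ∈ N → b ∈ N := fun h ha => by
    obtain ⟨g, rfl⟩ := isConj_iff.1 h
    exact nN.conj_mem _ ha g
  have hzN : (z : G) ∈ N := ⟨z.2, hz ▸ pow_orderOf_eq_one _⟩
  wlog hx : x ∈ N generalizing x y
  · exact this y x hy1 hx1 hyo hxo (mt IsConj.symm hxy) (fun u a b => (hall u a b).symm) (cN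
      ((hall z (fun e => hp.out.ne_one (by rw [← hz, e, orderOf_one])) ⟨1, by rw [hz, pow_one]⟩).resolve_left
        fun c => hx (cN c.symm hzN)).symm hzN)
  by_cases hy : y ∈ N
  · have key : ∀ u : G, (∃ k, orderOf u = p ^ k) → u ∈ N := fun u hu => by
      by_cases h : u = 1
      · exact h ▸ one_mem _
      exact (hall u h hu).elim (cN · hx) (cN · hy)
    have hVo : ∀ v ∈ V, ∃ k, orderOf v = p ^ k := fun v hv => by
      simpa using IsPGroup.iff_orderOf.1 hVp ⟨v, hv⟩
    have hself : centralizer (V : Set G) = V := le_antisymm hC fun v hv => (key v (hVo v hv)).1.2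
    have hidx : ¬ p ∣ V.index := fun h => by
      obtain ⟨P⟩ : Nonempty (Sylow p G) := inferInstance
      exact P.not_dvd_index (h.trans (index_dvd_of_le fun x hx => (key x (by
        simpa using IsPGroup.iff_orderOf.1 P.isPGroup' ⟨x, hx⟩)).1.1))
    obtain ⟨H, hH⟩ := exists_right_complement'_of_coprime (N := V) (by
      obtain ⟨k, hk⟩ := hVp.exists_card_eq
      exact hk ▸ ((Nat.Prime.coprime_iff_not_dvd hp.out).2 hidx).pow_left k)
    have hHp : ¬ p ∣ Nat.card H := by rwa [← hH.symm.index_eq_card]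
    have h1 := S4878.card_RC_le (p := p) (f := hH.symm.QuotientMulEquiv.toMonoidHom.comp (QuotientGroup.mk' V))
      (hH.symm.QuotientMulEquiv.surjective.comp (QuotientGroup.mk'_surjective V))
    rw [S4878.card_RC hHp] at h1
    exact (wrap V (fun v hv => (key v (hVo v hv)).2) hself H hH hHp hx.1.1 hy.1.1 hx1 hy1 hxy
      fun u hu h => hall u h (hVo u hu)).imp (by omega) (And.imp_left (by omega))
  have hf := QuotientGroup.mk'_surjective N
  have h1 := S4878.card_RC_le (p := p) hf
  have key : ∀ a : G ⧸ N, a ≠ 1 → (∃ k, orderOf a = p ^ k) → IsConj (QuotientGroup.mk' N y) a :=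
    fun a ha h => by
      obtain ⟨a, rfl⟩ := hf a
      rw [← Block.pPart_eq_self_iff.2 h, Block.pPart_map] at ha ⊢
      exact MonoidHom.map_isConj _ ((hall _ (fun e => ha (by rw [e, map_one]))
        (Block.orderOf_pPart p a)).resolve_left fun c => ha ((QuotientGroup.eq_one_iff _).2 (cN c hx)))
  have h2 := S4878.result p (PLocal.IsPSolvable.quotient hsolv N) (by
    obtain ⟨k, hk⟩ := hyo
    obtain ⟨_ | i, -, hi⟩ := (Nat.dvd_prime_pow hp.out).1 (hk ▸ orderOf_map_dvd (QuotientGroup.mk' N) y)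
    · exact absurd ((QuotientGroup.eq_one_iff _).1 (orderOf_eq_one_iff.1 hi)) hy
    · exact (hi ▸ dvd_pow_self p i.succ_ne_zero).trans (orderOf_dvd_natCard _))
    fun a b ha hb h h' => (key a ha h).symm.trans (key b hb h')
  change p ≤ Nat.card (S4878.RC p _) ∨ (Nat.card (S4878.RC p _) = _ ∧ _) ∨
    (_ ∧ Nat.card (S4878.RC p _) = _ ∧ _) at h2
  have := hp.out.two_le
  left
  rcases h2 with h | ⟨h, -⟩ | ⟨h, h', -⟩ <;> omega

end Cfsg.Agent.R3C
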